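import Cfsg.Agent.Lib.GLC.Zsig2

/-!
# Two orbits: arithmetic (S4881, helper21)
-/

set_option autoImplicit false
set_option linter.unusedSectionVars false

namespace Cfsg.Lib.TC

/-- Induction on `n` from `5` (`11 ^ 4 = 14641 > 3600`): `(2 n (n + 1))² ≤ 11 ^ (n - 1) ≤ p ^ (n - 1)` with
some room, and `(p - 1) * p ^ (n - 1) + 1 < p ^ n`. -/
theorem num_l2 {p n : ℕ} (hp : 11 ≤ p) (hn : 5 ≤ n) : (p - 1) * (2 * n * (n + 1) * (2 * n * (n + 1))) + 1 < p ^ n := by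
  obtain ⟨k, rfl⟩ : ∃ k, n = k + 1 := ⟨n - 1, by omega⟩
  have h : 2 * (k + 1) * (k + 1 + 1) * (2 * (k + 1) * (k + 1 + 1)) ≤ 11 ^ k := by
    replace hn : 4 ≤ k := by omega
    induction k, hn using Nat.le_induction with
    | base => norm_num
    | succ k hk ih =>
      have : (k + 3) * (k + 3) ≤ 11 * ((k + 1) * (k + 1)) := by nlinarith
      rw [pow_succ]
      nlinarith [Nat.mul_le_mul_left (4 * ((k + 2) * (k + 2))) this]
  have h1 := Nat.mul_le_mul_left (p - 1) (h.trans (Nat.pow_le_pow_left hp k))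
  have h2 := Nat.one_lt_pow (n := k) (a := p) (by omega) (by omega)
  obtain ⟨q, rfl⟩ : ∃ q, p = q + 1 := ⟨p - 1, by omega⟩
  rw [Nat.add_sub_cancel] at h1 ⊢
  rw [pow_succ]
  nlinarith

/-- `p ^ (2 f) - 1 ≥ (p - 1) (p ^ (2 f - 1) + 1)` and `40 f² < 3 * 11 ^ (2 f - 1)` for `f ≥ 2`; for `f = 1`:
`3 (p + 1) ≤ 40`. -/
theorem num_fld {p f : ℕ} (hp : p.Prime) (h11 : 11 ≤ p) (hf : 0 < f)
    (h : 3 * p ^ (2 * f) ≤ 40 * (f * f) * (p - 1) + 3) : p = 11 ∧ f = 1 := by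
  obtain ⟨q, rfl⟩ : ∃ q, p = q + 1 := ⟨p - 1, by omega⟩
  rw [Nat.add_sub_cancel] at h
  rcases (show 1 ≤ f from hf).eq_or_lt with rfl | h2
  · have : q ≤ 11 := by norm_num at h; nlinarith
    refine ⟨?_, rfl⟩
    obtain rfl | rfl : q = 10 ∨ q = 11 := by omega
    exacts [rfl, absurd hp (by norm_num)]
  obtain ⟨k, rfl⟩ : ∃ k, f = k + 1 := ⟨f - 1, by omega⟩
  have h3 : ∀ k, 40 * ((k + 1) * (k + 1)) ≤ 3 * 11 ^ (2 * k + 1) + 7 := fun k => by
    induction k with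
    | zero => norm_num
    | succ k ih => rw [show 2 * (k + 1) + 1 = 2 * k + 1 + 2 by ring, pow_add]; nlinarith
  have h4 := Nat.pow_le_pow_left h11 (2 * k + 1)
  have h5 := Nat.pow_le_pow_right (n := q + 1) (by omega) (show 2 ≤ 2 * k + 1 by omega)
  rw [show 2 * (k + 1) = 2 * k + 1 + 1 by ring, pow_succ] at h
  nlinarith [Nat.mul_le_mul_right q ((h3 k).trans (Nat.add_le_add_right (Nat.mul_le_mul_left 3 h4) 7))]

/-- If no such prime exists, every prime `r ∣ M` is `≡ 1 mod m` (`ZMod.orderOf_dvd_card_sub_one`) and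
`≤ 3 m`, so is `m + 1` or `2 m + 1`, with exponents at most `2` and `1`
(`Nat.dvd_iff_prime_pow_dvd_dvd`). -/
theorem prim_of_not_dvd {p m M : ℕ} (hm : 3 ≤ m) (h1 : M ∣ p ^ m - 1)
    (h2 : ∀ r : ℕ, r.Prime → r ∣ M → orderOf (p : ZMod r) = m) (h3 : ¬ M ∣ (m + 1) ^ 2 * (2 * m + 1)) :
    ∃ r : ℕ, r.Prime ∧ orderOf (p : ZMod r) = m ∧
      (3 * m + 1 ≤ r ∨ (2 * m ≤ r ∧ r ^ 2 ∣ p ^ m - 1) ∨ r ^ 3 ∣ p ^ m - 1) := by
  by_contra! k
  refine h3 ((Nat.dvd_iff_prime_pow_dvd_dvd _ _).2 fun r j hr hj => ?_)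
  rcases j.eq_zero_or_pos with rfl | j0
  · exact one_dvd _
  have o := h2 r hr ((dvd_pow_self r j0.ne').trans hj)
  obtain ⟨k1, k2, k3⟩ := k r hr o
  have := Fact.mk hr
  obtain ⟨c, hc⟩ := o ▸ ZMod.orderOf_dvd_card_sub_one (a := (p : ZMod r)) fun e => by
    have := pow_orderOf_eq_one (p : ZMod r)
    rw [o, e, zero_pow (by omega)] at this
    exact zero_ne_one this
  have := hr.two_le
  have c3 : c < 3 := Nat.lt_of_mul_lt_mul_left (a := m) (by omega)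
  have le : ∀ i, ¬ r ^ (i + 1) ∣ p ^ m - 1 → r ^ j ∣ r ^ i := fun i h =>
    pow_dvd_pow r (not_lt.1 fun q => h ((pow_dvd_pow r q).trans (hj.trans h1)))
  interval_cases c
  · omega
  · exact (le 2 k3).trans (show r = m + 1 by omega ▸ dvd_mul_right _ _)
  · exact (le 1 (k2 (by omega))).trans (show r = 2 * m + 1 by omega ▸ (pow_one _).dvd.trans (dvd_mul_left _ _))

theorem half_mid : ∀ m ∈ Finset.range 201, 11 ^ m.totient ≤ 4 * (m * ((m + 1) ^ 2 * (2 * m + 1))) → m ≤ 12 := by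
  decide +kernel

theorem half_small : ∀ m ∈ Finset.range 13, ∀ p ∈ Finset.range 451, 3 ≤ m → 11 ≤ p →
    p ^ m.totient ≤ 4 * (m * ((m + 1) ^ 2 * (2 * m + 1))) → p.Prime → ¬ (p = 17 ∧ m = 6) →
    (∀ i ∈ Finset.Ico 1 m, Nat.Coprime (GLC.primW p m) (p ^ i - 1)) ∧ ¬ GLC.primW p m ∣ (m + 1) ^ 2 * (2 * m + 1) := by
  decide +kernel

/-- Take `M` from `GLC.exists_prim_divisor`; if `M ∣ (m + 1)² (2 m + 1)` then
`11 ^ φ(m) ≤ p ^ φ(m) ≤ 4 m (m + 1)² (2 m + 1)`.  With `m ≤ 2 φ²` (`le_two_mul_totient_sq`) this fails for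
`φ ≥ 10` (induction), so `m ≤ 162`, and a finite check of `φ(m)` leaves `m ∈ {3, 4, 6, 8, 10, 12}`, `p ≤ 123`
(`φ ≥ 2`).  There use `M = GLC.primW p m` (see `GLC.prim_small`, `exists_large_prim_divisor` for the pattern:
`primW p m ∣ p ^ m - 1`, coprime to `p ^ i - 1` for `0 < i < m`, not dividing `(m + 1)² (2 m + 1)`, by
`decide +kernel` over primes `p`; non-primes such as `18` must be skipped) in `prim_of_not_dvd`. -/
theorem num_half {p m : ℕ} (hp : p.Prime) (h11 : 11 ≤ p) (hm : 3 ≤ m) (hx : ¬ (p = 17 ∧ m = 6)) :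
    ∃ r : ℕ, r.Prime ∧ orderOf (p : ZMod r) = m ∧
      (3 * m + 1 ≤ r ∨ (2 * m ≤ r ∧ r ^ 2 ∣ p ^ m - 1) ∨ r ^ 3 ∣ p ^ m - 1) := by
  obtain ⟨M, h1, h2, h3⟩ := GLC.exists_prim_divisor (a := p) (n := m) (by omega) hm
  by_cases h : M ∣ (m + 1) ^ 2 * (2 * m + 1)
  swap
  · exact prim_of_not_dvd hm h1 h2 h
  replace h3 := h3.trans (Nat.mul_le_mul_left 4 (Nat.mul_le_mul_left m (Nat.le_of_dvd (by positivity) h)))
  have h4 := (Nat.pow_le_pow_left h11 _).trans h3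
  have h5 : m ≤ 12 := half_mid m (Finset.mem_range.2 (by
    by_contra! q
    have h5 := (GLC.le_two_mul_totient_sq m).1
    have h6 : ∀ t, 11 ≤ t → 768 * t ^ 8 < 11 ^ t := fun t ht => by
      induction t, ht using Nat.le_induction with
      | base => norm_num
      | succ t ht ih =>
        have := Nat.pow_le_pow_left (show 11 * (t + 1) ≤ 12 * t by omega) 8
        rw [mul_pow, mul_pow] at this
        rw [pow_succ 11]
        omega
    refine absurd (h4.trans ?_) (h6 _ (by nlinarith)).not_ge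
    calc _ ≤ 4 * (m * ((2 * m) ^ 2 * (3 * m))) := by gcongr <;> omega
      _ = 48 * m ^ 4 := by ring
      _ ≤ 48 * (2 * m.totient ^ 2) ^ 4 := by gcongr
      _ = _ := by ring)) h4
  have h6 : p < 451 := by
    by_contra! q
    have h4 : 2 ≤ m.totient := by
      have := Nat.totient_even (n := m) (by omega)
      have := Nat.totient_pos.2 (show 0 < m by omega)
      grind
    have := ((Nat.pow_le_pow_left q 2).trans (Nat.pow_le_pow_right (by omega) h4)).trans h3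
    interval_cases m <;> omega
  obtain ⟨h7, h8⟩ := half_small m (Finset.mem_range.2 (by omega)) p (Finset.mem_range.2 h6) hm h11 h3 hp hx
  have h9 : GLC.primW p m ∣ p ^ m - 1 := Nat.div_dvd_of_dvd (Nat.gcd_dvd_left _ _)
  refine prim_of_not_dvd hm h9 (fun r hr hd => ?_) h8
  have key : ∀ i, (p : ZMod r) ^ i = 1 ↔ r ∣ p ^ i - 1 := fun i => by
    rw [← Nat.cast_pow, ← Nat.cast_one (R := ZMod r), eq_comm, ZMod.natCast_eq_natCast_iff,
      Nat.modEq_iff_dvd' (Nat.one_le_pow _ _ (by omega))]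
  exact (orderOf_eq_iff (by omega)).2 ⟨(key m).2 (hd.trans h9), fun i h1 h2 e =>
    hr.one_lt.ne' (Nat.eq_one_of_dvd_coprimes (h7 i (Finset.mem_Ico.2 ⟨h2, h1⟩)) hd ((key i).1 e))⟩

theorem four_chk : ∀ D ∈ [46080, 51840, 5040], ∀ p ∈ Finset.range 33, ∀ m ∈ Finset.range 33, ∀ c ∈ Finset.range 27,
    11 ≤ p → 3 ≤ m → m ∣ p - 1 → m * c ∣ D →
    p.Prime → p ^ 3 + p ^ 2 + p + 1 ≤ 2 * (D / (m * c)) → ¬ m * (p ^ 3 + p ^ 2 + p + 1 - D / (m * c)) ∣ D := by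
  decide +kernel

/-- Checked by computer for all primes.  With `u ≤ w`: `p³ < 2 w ≤ 2 D / 3` gives `p < 33`; `D = m * w * c` with
`c ≤ 25` (`w > 11³ / 2`); so `decide +kernel` over `p < 33`, `m < 33`, `c < 27`: `w = D / (m c)`,
`u = p³ + p² + p + 1 - w`. -/
theorem num_four {p m u w D : ℕ} (hp : p.Prime) (h11 : 11 ≤ p) (h3 : 3 ≤ m) (hm : m ∣ p - 1)
    (hs : u + w = p ^ 3 + p ^ 2 + p + 1) (hu : m * u ∣ D) (hw : m * w ∣ D) (hD : D = 46080 ∨ D = 51840 ∨ D = 5040) :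
    False := by
  wlog h : u ≤ w generalizing u w
  · exact this (by omega) hw hu (by omega)
  obtain ⟨c, hc⟩ := hw
  have D0 : 0 < D ∧ D ≤ 51840 := by omega
  have c0 : 0 < c := Nat.pos_of_ne_zero (by rintro rfl; omega)
  have h1 := Nat.pow_le_pow_left h11 3
  have h2 : 3 * w * c ≤ D := hc ▸ Nat.mul_le_mul_right c (Nat.mul_le_mul_right w h3)
  have h4 : p < 33 := lt_of_not_ge fun q => by
    have := Nat.pow_le_pow_left q 3
    nlinarith
  have e : D / (m * c) = w := Nat.div_eq_of_eq_mul_left (by positivity) (by rw [hc]; ring)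
  have := Nat.le_of_dvd (by omega) hm
  refine four_chk D (by simpa using hD) p (Finset.mem_range.2 h4) m (Finset.mem_range.2 (by omega)) c
    (Finset.mem_range.2 (by nlinarith)) h11 h3 hm ⟨w, by rw [hc]; ring⟩ hp (by omega) ?_
  rwa [e, ← hs, Nat.add_sub_cancel]

/-- `α β (r - s)² = (α + β) (α r² + β s²) - (α r + β s)² = pⁿ α β`, so `(r - s)² = pⁿ`, `n = 2 m`,
`r - s = ± pᵐ` and `(pᵐ - 1) (pᵐ + 1) s = - α (1 ± pᵐ)`; `m > 0`. -/
theorem num_srg {p n α β : ℕ} (hp : p.Prime) (hα : 0 < α) (hβ : 0 < β) (h0 : α + β + 1 = p ^ n) {r s : ℤ}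
    (h1 : α + α * r + β * s = 0) (h2 : α ^ 2 + α * r ^ 2 + β * s ^ 2 = (p : ℤ) ^ n * α) :
    ∃ m, n = 2 * m ∧ ((p ^ m - 1 ∣ α ∧ p ^ m - 1 ∣ β) ∨ (p ^ m + 1 ∣ α ∧ p ^ m + 1 ∣ β)) := by
  have q : (p : ℤ) ^ n = α + β + 1 := by exact_mod_cast h0.symm
  have h3 : (r - s) ^ 2 = (p : ℤ) ^ n := mul_left_cancel₀ (a := (α * β : ℤ)) (by positivity) (by
    rw [q] at h2 ⊢
    linear_combination (α + β) * h2 - (α * r + β * s - α) * h1)
  have h4 : (r - s).natAbs ^ 2 = p ^ n := by simpa [Int.natAbs_pow] using congrArg Int.natAbs h3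
  obtain ⟨m, -, hm⟩ := (Nat.dvd_prime_pow hp).1 (Dvd.intro_left _ ((pow_two _).symm.trans h4))
  rw [hm, ← pow_mul] at h4
  obtain rfl := Nat.pow_right_injective hp.two_le h4
  refine ⟨m, mul_comm m 2, ?_⟩
  rw [pow_mul] at h0 q
  have P1 : 1 < p ^ m := by nlinarith [Nat.pow_pos (n := m) hp.pos]
  rw [← Nat.cast_pow] at q
  generalize p ^ m = P at *
  obtain ⟨P, rfl⟩ : ∃ Q, P = Q + 1 := ⟨P - 1, by omega⟩
  have e : α + β = P * (P + 1 + 1) := by nlinarith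
  push_cast at q
  rcases Int.natAbs_eq_iff.1 hm with k | k <;> push_cast at k
  · have : P ∣ α := Int.natCast_dvd_natCast.1 ⟨-s, mul_left_cancel₀ (a := (P + 2 : ℤ)) (by positivity) (by
      linear_combination h1 - α * k + s * q)⟩
    exact .inl ⟨this, (Nat.dvd_add_right this).1 (e ▸ dvd_mul_right _ _)⟩
  · have : P + 1 + 1 ∣ α := Int.natCast_dvd_natCast.1 ⟨s, mul_left_cancel₀ (a := (P : ℤ)) (by omega) (by
      push_cast
      linear_combination α * k - h1 - s * q)⟩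
    exact .inr ⟨this, (Nat.dvd_add_right this).1 (e ▸ dvd_mul_left _ _)⟩

end Cfsg.Lib.TC
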