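import Cfsg.Agent.Lib.TC.Def
import Cfsg.Agent.Lib.TC.Num
import Cfsg.Agent.Lib.KT.Chr
import Cfsg.Agent.Lib.LinP.Feit
import Cfsg.Agent.Lib.Cyc.Red

/-!
# Two orbits: lifting to characteristic zero (S4881, helper21)
-/

set_option autoImplicit false
set_option linter.unusedSectionVars false

namespace Cfsg.Lib.TC

open Subgroup MulAction Matrix Cfsg.Lib.KT Cfsg.Lib.Asch Cfsg.Lib.Char
open scoped MatrixGroups

variable {p n r : ℕ} [hp : Fact p.Prime] [hr : Fact r.Prime] {H : Subgroup (GL (Fin n) (ZMod p))}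
  {a b : Fin n → ZMod p}

theorem chr_one {g : H} (h : ∀ v, (g : GL (Fin n) (ZMod p)).1 *ᵥ v = v) : g = 1 :=
  Subtype.ext (Units.ext (Matrix.ext_iff_mulVec.2 fun v => (h v).trans (one_mulVec v).symm))

/-- `Coprime.exists_character_of_zmod` for `ρ = (Units.coeHom _).comp H.subtype`; as in `KT.St.chi`
(`Coprime.classInner_one_of_forall` for `⊥` and `zpowers g`).  Last part: `d ≠ 0` gives more than one fixed vector. -/
theorem chi (hc : ¬ p ∣ Nat.card H) : ∃ χ : H → ℂ, IsCharacter H χ ∧ (∀ g, χ g = χ 1 → g = 1) ∧ charDegree χ = n ∧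
    ∀ (K : Subgroup H) [Fintype K], classInner (fun k : K => χ k) (fun _ => 1) ≠ 0 →
      ∃ v : Fin n → ZMod p, v ≠ 0 ∧ ∀ k ∈ K, (k : GL (Fin n) (ZMod p)).1 *ᵥ v = v := by
  classical
  have := Fintype.ofFinite H
  obtain ⟨χ, hχ, h⟩ := Coprime.exists_character_of_zmod hc ((Units.coeHom _).comp H.subtype)
  have cV : Nat.card (Fin n → ZMod p) = p ^ n := by rw [Nat.card_fun, Nat.card_zmod, Nat.card_fin]
  have h1 : χ 1 = n := by
    obtain ⟨d, h1, h2⟩ := h ⊥
    rw [Coprime.classInner_one_of_forall (χ := χ) (H := ⊥) fun x hx => by rw [mem_bot.1 hx]] at h1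
    rw [Nat.card_congr (Equiv.subtypeUnivEquiv fun u x hx => by rw [mem_bot.1 hx, map_one, one_mulVec]), cV] at h2
    rw [h1, Nat.pow_right_injective hp.out.two_le h2]
  refine ⟨χ, hχ, fun g hg => ?_, by exact_mod_cast hχ.apply_one_eq.symm.trans h1, fun K _ hK => ?_⟩
  · obtain ⟨d, h2, h3⟩ := h (zpowers g)
    rw [Coprime.classInner_one_of_forall (χ := χ) (H := zpowers g) fun x hx => hχ.mem_charKer_iff.1
      (zpowers_le.2 (hχ.mem_charKer_iff.2 hg) hx), h1, Nat.cast_inj] at h2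
    rw [← h2, ← cV] at h3
    refine chr_one fun v => ?_
    obtain ⟨u, rfl⟩ := ((Nat.bijective_iff_injective_and_card _).2 ⟨Subtype.val_injective, h3⟩).2 v
    exact u.2 g (mem_zpowers g)
  · obtain ⟨d, h2, h3⟩ := h K
    have := Finite.one_lt_card_iff_nontrivial.1 (h3 ▸ Nat.one_lt_pow (fun e => hK (by rw [h2, e, Nat.cast_zero]))
      hp.out.one_lt)
    obtain ⟨u, hu⟩ := exists_ne (⟨0, fun _ _ => mulVec_zero _⟩ :
      {u : Fin n → ZMod p // ∀ k ∈ K, ((Units.coeHom _).comp H.subtype) k *ᵥ u = u})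
    exact ⟨u, fun e => hu (Subtype.ext e), u.2⟩

/-- Any irreducible constituent `ζ` of `χ` (`χ ≠ 0` as `n > 0`; `mlt`, `charDegree_le_of_constituent` as in
`KT.syl_or`) is faithful: on `K = charKer ζ` the restriction of `χ = ζ + (character or 0)` contains the trivial
character, so the fixed space of the normal subgroup `K` is a non-zero invariant subspace, hence everything. -/
theorem chi_irr (hc : ¬ p ∣ Nat.card H) (hi : Irr H) (hn : 0 < n) :
    ∃ ζ : H → ℂ, IsIrrCharacter H ζ ∧ (∀ g, ζ g = ζ 1 → g = 1) ∧ charDegree ζ ≤ n := by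
  classical
  have := Fintype.ofFinite H
  obtain ⟨χ, hχ, -, hd, h⟩ := chi hc
  obtain ⟨ζ, hζ, h1⟩ := hχ.isClassFunction.exists_irr_inner_ne_zero fun e => by
    rw [e] at hd
    exact hn.ne (by simpa [charDegree] using hd)
  refine ⟨ζ, hζ, fun g hg => ?_, (hχ.charDegree_le_of_constituent hζ h1).trans hd.le⟩
  have hK := hζ.isCharacter.charKer_normal
  obtain ⟨v, v0, hv⟩ := h (charKer ζ) (Induce.inner_comp_ne_zero_of_constituent (charKer ζ).subtype hχ hζ h1
    Char.isIrrCharacter_one.isCharacter (by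
      rw [show classInner (fun x => ζ ((charKer ζ).subtype x)) (fun _ => 1) = ζ 1 from
        Coprime.classInner_one_of_forall fun x hx => hζ.isCharacter.mem_charKer_iff.1 hx]
      exact hζ.apply_one_ne_zero))
  let W : Submodule (ZMod p) (Fin n → ZMod p) :=
    { carrier := {u | ∀ k ∈ charKer ζ, (k : GL (Fin n) (ZMod p)).1 *ᵥ u = u}
      add_mem' := fun ha hb k hk => by rw [mulVec_add, ha k hk, hb k hk]
      zero_mem' := fun _ _ => mulVec_zero _
      smul_mem' := fun c u hu k hk => by rw [mulVec_smul, hu k hk] }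
  refine chr_one fun u => ((hi W fun x hx u hu k hk => ?_).resolve_left fun e => v0 ((Submodule.mem_bot _).1
    (e.le hv))).ge (Submodule.mem_top (x := u)) g (hζ.isCharacter.mem_charKer_iff.2 hg)
  · conv_rhs => rw [← hu _ (hK.conj_mem' k hk ⟨x, hx⟩)]
    simp only [mulVec_mulVec, ← Units.val_mul, coe_mul, InvMemClass.coe_inv, ← mul_assoc, mul_inv_cancel, one_mul]

/-- Let `ρ` afford `χ` (injective, see `KT.St.syl_normal`), `σ` its reduction modulo `r` (`Cyc.exists_reduction`).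
`ker σ` is a normal `r`-subgroup (Cauchy), so `≤ pCore r H`.  `x = σ g - 1` has `x ^ r ^ k = σ g ^ r ^ k - 1 = 0`
(`sub_pow_char_pow_of_commute`), so `x ^ n = 0` (`IsNilpotent.charpoly_eq_X_pow_finrank`, or
`Module.End.pow_finrank`-type lemma), so `σ (g ^ r ^ j) = 1 + x ^ r ^ j = 1`. -/
theorem red (hc : ¬ p ∣ Nat.card H) {g : H} (hg : ∃ k, g ^ r ^ k = 1) {j : ℕ} (hj : n ≤ r ^ j) :
    g ^ r ^ j ∈ pCore r H := by
  obtain ⟨χ, hχ, hf, hd, -⟩ := chi hc
  obtain ⟨m, ρ, rfl⟩ := hχ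
  obtain ⟨k, _, _, _, σ, hσ⟩ := Cyc.exists_reduction ρ r
  rw [Char.charDegree_character] at hd
  have key : ∀ i, (σ g - 1) ^ r ^ i = σ (g ^ r ^ i) - 1 := fun i => by
    simpa using congrArg (Polynomial.aeval (σ g)) (sub_pow_char_pow (p := r) (n := i) (Polynomial.X (R := k)) 1)
  obtain ⟨i, hi⟩ := hg
  have h1 := LinearMap.aeval_self_charpoly (σ g - 1)
  rw [IsNilpotent.charpoly_eq_X_pow_finrank ⟨r ^ i, by rw [key, hi, map_one, sub_self]⟩, map_pow, Polynomial.aeval_X] at h1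
  refine Core.le_pCore (N := MonoidHom.ker σ) inferInstance (Core.isPGroup_subgroup_iff.2 fun x hx => ?_)
    (sub_eq_zero.1 ((key j).symm.trans (pow_eq_zero_of_le (((Module.finrank_fin_fun k).trans hd).trans_le hj) h1)))
  obtain ⟨e, t, ht, o⟩ := Nat.exists_eq_pow_mul_and_not_dvd (orderOf_pos x).ne' r hr.out.ne_one
  refine ⟨e, hf _ ((Char.character_eq_character_one_iff ρ _).2 (hσ _ (fun q => ht (q.trans ?_)) (pow_mem hx _)))⟩
  exact orderOf_dvd_of_pow_eq_one (by rw [← pow_mul, ← o, pow_orderOf_eq_one])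

/-- `chi` and `LinP.normal_of_small`. -/
theorem syl_normal (hc : ¬ p ∣ Nat.card H) (h : 2 * n + 1 < r) (P : Sylow r H) : (P : Subgroup H).Normal := by
  obtain ⟨χ, hχ, hf, hd, -⟩ := chi hc
  exact LinP.normal_of_small hχ hf (.inl (by rwa [hd])) P

/-- Suppose `pCore r H = ⊥`.  `LinP.feit` (`n + 2 ≤ r`): `r² ∤ |H|`, so a Sylow `P` has order `r` and is not normal.
`S4704` for `ζ` of `chi_irr` (cf. `KT.irr_case`): the second and third alternatives contradict `3 n + 2 ≤ 2 r`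
(`√(r + 5/4) < r / 3 + 13 / 6`); in the first `r ≤ 2 n + 1` (so `r ≥ 11`, `n ≥ 5`),
`2 (center H).index = r (r² - 1)`, and `T = (center H ⊔ P).map H.subtype` is abelian of index
`≤ (r² - 1) / 2 ≤ 2 n (n + 1)` (`center ⊓ P = ⊥` as `P` is not normal, or: `r ∤ |center|` since `r² ∤ |H|`);
`Hy.of_ab` with `num_l2`. -/
theorem Hy.big (h : Hy H a b) (h11 : 11 ≤ p) (h7 : 7 < r) (hn : 3 * n + 2 ≤ 2 * r) (hd : r ∣ Nat.card H) :
    p ≤ 2 * kk H ∨ pCore r H ≠ ⊥ := by
  refine or_iff_not_imp_right.2 fun e => ?_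
  replace e := not_not.1 e
  obtain ⟨χ, hχ, hf, hd', -⟩ := chi h.cop
  have h2 := LinP.feit (p := r) hχ hf (by omega)
  rw [e, index_bot] at h2
  obtain ⟨P⟩ : Nonempty (Sylow r H) := inferInstance
  have P0 := P.ne_bot_of_dvd_card hd
  have hP : ¬ (P : Subgroup H).Normal := fun k => P0 (le_bot_iff.1 (e ▸ Core.le_pCore k P.2))
  have hc : Nat.card P = r := by
    obtain ⟨k, hk⟩ := P.isPGroup'.exists_card_eq
    have k2 : ¬ 2 ≤ k := fun h => h2 ((pow_dvd_pow r h).trans (hk ▸ card_subgroup_dvd_card (P : Subgroup H)))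
    have k0 : k ≠ 0 := by
      rintro rfl
      exact P0 (card_eq_one.1 hk)
    rw [hk, show k = 1 by omega, pow_one]
  obtain ⟨ζ, hζ, zf, zd⟩ := chi_irr h.cop h.irr h.pos
  rcases Agent.S4704.result r h7 P hc hP ζ hζ zf _ rfl with ⟨⟨F, _, _, hF, ⟨ε⟩⟩, h3, -⟩ | h3 | ⟨h3, -⟩
  · have h4 := PSL2.card_PSL2_mul (K := F)
    rw [PSL2.gcd_two_eq_of_odd (by rw [Nat.card_eq_fintype_card, hF]; exact hr.out.odd_of_ne_two (by omega)),
      Nat.card_eq_fintype_card (α := F), hF, ← Nat.card_congr ε.toEquiv, ← index,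
      ← relIndex_mul_index (le_sup_left (b := (P : Subgroup H))), relIndex_sup_left,
      ((Nat.dvd_prime hr.out).1 ((relIndex_dvd_card (center H) P).trans hc.dvd)).resolve_left fun q =>
        hP (Asch.normal_of_le_center (relIndex_eq_one.1 q)), mul_left_comm] at h4
    have h5 := Nat.eq_of_mul_eq_mul_left hr.out.pos h4
    have h6 : 11 ≤ r := by
      by_contra q
      have := hr.out
      interval_cases r <;> exact absurd this (by decide)
    have : IsMulCommutative ↥(center H ⊔ P) := PGroup.isMulCommutative_sup inferInstance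
      (PGroup.elemAb_of_card_eq hc).1 (center_le_centralizer _)
    refine h.of_ab (map_subtype_le (center H ⊔ P)) inferInstance ?_ (num_l2 h11 (by omega))
    rw [Core.relIndex_map_subtype]
    have := Nat.pow_le_pow_left (show r ≤ 2 * n + 1 by omega) 2
    have : (2 * n + 1) ^ 2 = 2 * (2 * n * (n + 1)) + 1 := by ring
    omega
  · omega
  · have h4 : 3 * (charDegree ζ : ℝ) + 2 ≤ 2 * r := by exact_mod_cast (by omega : 3 * charDegree ζ + 2 ≤ 2 * r)
    have h5 : (0 : ℝ) ≤ r := Nat.cast_nonneg r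
    have : Real.sqrt ((r : ℝ) + 5 / 4) < r / 3 + 13 / 6 := (Real.sqrt_lt' (by positivity)).2 (by nlinarith)
    linarith

end Cfsg.Lib.TC
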