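import Cfsg.Agent.Lib.TC.Chr
import Cfsg.Agent.S2380

/-!
# Two orbits: elements of large prime power order (S4881, helper21)
-/

set_option autoImplicit false
set_option linter.unusedSectionVars false

namespace Cfsg.Lib.TC

open Subgroup MulAction Matrix Cfsg.Lib.KT Cfsg.Lib.Asch
open scoped MatrixGroups

variable {p n r : ℕ} [hp : Fact p.Prime] [hr : Fact r.Prime] {H R : Subgroup (GL (Fin n) (ZMod p))}
  {a b : Fin n → ZMod p}

/-- The proof of `S2380` (`Homocyc.hc_gl`, `HC.sylow`, `val_card`) needs only `n < d r`: `i + 1 = d j`, `r ∣ j`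
give `d r ≤ i + 1 ≤ n`.  So Sylow `r`-subgroups of `GLₙ(p)` are abelian; `R` lies in one
(`IsPGroup.exists_le_sylow`). -/
theorem ab_of_lt (hne : r ≠ p) (hn : n < orderOf (p : ZMod r) * r) (hR : IsPGroup r R) : IsMulCommutative R := by
  obtain ⟨P, hP⟩ := hR.exists_le_sylow
  have hrq : ¬ r ∣ Nat.card (ZMod p) := by
    rw [Nat.card_zmod]; exact fun h => hne ((Nat.prime_dvd_prime_iff_eq hr.out hp.out).1 h)
  have h1 : 1 < Nat.card (ZMod p) := Finite.one_lt_card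
  obtain ⟨e⟩ := (GLC.Homocyc.hc_gl hrq n).sylow (by
    rw [Linear.card_GL, Linear.prod_pow_sub_pow, Fintype.card_fin, ← Nat.card_eq_fintype_card,
      GLC.Homocyc.val_card h1 hrq _ _ (fun i => i + 1) (fun _ _ => Nat.succ_ne_zero _), Nat.card_multiples]
    intro i hi j hj ⟨k, hk⟩
    have h2 := Finset.mem_range.1 hi
    rw [Nat.card_zmod, hk, ← mul_assoc] at hj
    have := Nat.le_of_dvd (Nat.succ_pos i) ⟨k, hj⟩
    omega) P
  exact PGroup.isMulCommutative_of_le hP ⟨⟨fun x y => e.injective (by rw [map_mul, map_mul, mul_comm])⟩⟩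

/-- `C = env R` is a finite commutative ring (`commute_env`; `CommRing` via `{ C.toRing with mul_comm := _ }`)
acting on `V`.  Take an atom `S` of `Submodule C V` (finite lattice), `0 ≠ v ∈ S`; the annihilator `𝔪` of `v` is a
maximal ideal (`isSimpleModule_iff_isAtom`, `IsSimpleModule.ker_toSpanSingleton_isMaximal`); the image of `R` in
the units of the finite field `C ⧸ 𝔪` is cyclic, generated by the image of `g`; `x - g ^ k ∈ 𝔪`.
(Alternatively: among `v ≠ 0` take one with `{c ∈ C | c v = 0}` maximal; this ideal is prime.) -/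
theorem cyc_orb (hn : 0 < n) (hR : IsMulCommutative R) :
    ∃ v : Fin n → ZMod p, v ≠ 0 ∧ ∃ g ∈ R, ∀ x ∈ R, ∃ k : ℕ, x.1 *ᵥ v = (g ^ k).1 *ᵥ v := by
  let _ : CommRing (env R) := { (inferInstance : Ring (env R)) with
    mul_comm := fun x y => Subtype.ext (commute_env (le_centralizer_iff_isMulCommutative.2 hR) x.2 y.2) }
  let I : (Fin n → ZMod p) → Ideal (env R) := fun v =>
    { carrier := {c | c.1 *ᵥ v = 0}
      add_mem' := fun {a b} ha hb => (add_mulVec a.1 b.1 v).trans (by rw [ha, hb, add_zero])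
      zero_mem' := zero_mulVec v
      smul_mem' := fun a b hb => (mulVec_mulVec v a.1 b.1).symm.trans (by rw [hb, mulVec_zero]) }
  have hI : ∀ v c, c ∈ I v ↔ c.1 *ᵥ v = 0 := fun _ _ => Iff.rfl
  obtain ⟨v, v0, m⟩ := (Set.toFinite {v | v ≠ 0}).exists_maximalFor I _
    ⟨fun _ => 1, fun e => one_ne_zero (congrFun e ⟨0, hn⟩)⟩
  have : (I v).IsPrime := ⟨(Ideal.ne_top_iff_one _).2 fun e => v0 ((one_mulVec v).symm.trans e), fun {a b} e =>
    or_iff_not_imp_right.2 fun k => m (j := b.1 *ᵥ v) k (fun c hc => (hI _ _).2 (by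
      rw [mulVec_mulVec, show c.1 * b.1 = b.1 * c.1 from congrArg Subtype.val (mul_comm c b), ← mulVec_mulVec,
        (hI _ _).1 hc, mulVec_zero])) ((mulVec_mulVec v a.1 b.1).trans e)⟩
  let ι : R →* env R := ⟨⟨fun x => ⟨x.1.1, mem_env x.2⟩, rfl⟩, fun _ _ => rfl⟩
  let f := ((Ideal.Quotient.mk (I v)).toMonoidHom.comp ι).toHomUnits
  obtain ⟨⟨_, g, rfl⟩, hg⟩ := IsCyclic.exists_monoid_generator (α := f.range)
  refine ⟨v, v0, g, g.2, fun x hx => ?_⟩
  obtain ⟨k, e⟩ := hg ⟨_, ⟨x, hx⟩, rfl⟩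
  have e : f (g ^ k) = f ⟨x, hx⟩ := (map_pow f g k).trans (congrArg Subtype.val e)
  have := (hI _ _).1 (Ideal.Quotient.eq.1 (congrArg Units.val e))
  exact ⟨k, (sub_eq_zero.1 ((sub_mulVec _ _ v).symm.trans this)).symm⟩

/-- `P` a Sylow `r`-subgroup of `H`, `R = P.map H.subtype`, `v, g` from `cyc_orb`.  `r ^ (j + 1)` divides
`orb H v = |H : H_v|` (`orb_or`), which divides `|H : P ⊓ H_v| = |H : P| * orb R v`; `r ∤ |H : P|`, so
`r ^ (j + 1) ≤ orb R v`.  If `g ^ r ^ j = 1`, `orbit R v ⊆ {g ^ k v | k < r ^ j}` is too small.  So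
`1 ≠ g ^ r ^ j ∈ pCore r H` by `red`. -/
theorem Hy.pow (h : Hy H a b) (hne : r ≠ p) (hn : n < orderOf (p : ZMod r) * r) {j : ℕ} (hj : n ≤ r ^ j)
    (ha : r ^ (j + 1) ∣ orb H a) (hb : r ^ (j + 1) ∣ orb H b) : pCore r H ≠ ⊥ := by
  obtain ⟨P⟩ : Nonempty (Sylow r H) := inferInstance
  obtain ⟨v, v0, _, ⟨g, hg, rfl⟩, hv⟩ := cyc_orb h.pos (ab_of_lt hne hn (P.2.map H.subtype))
  have h1 : r ^ (j + 1) ∣ (stabilizer H v).index := orb_eq_index H v ▸ (h.orb_or v0).elim (· ▸ ha) (· ▸ hb)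
  have h2 := h1.trans (index_dvd_of_le (inf_le_left (b := (P : Subgroup H))))
  rw [← relIndex_mul_index inf_le_right, inf_relIndex_right] at h2
  have h3 := Nat.le_of_dvd (Nat.pos_of_ne_zero index_ne_zero_of_finite)
    ((Nat.Coprime.pow_left _ (hr.out.coprime_iff_not_dvd.2 P.not_dvd_index)).dvd_of_dvd_mul_right h2)
  have h4 : (stabilizer H v).relIndex P ≤ orderOf g := Nat.card_zpowers g ▸ Nat.card_le_card_of_surjective
    (fun x : zpowers g => (QuotientGroup.mk ⟨x, zpowers_le.2 hg x.2⟩ : P ⧸ (stabilizer H v).subgroupOf P)) fun q => by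
      obtain ⟨x, rfl⟩ := QuotientGroup.mk_surjective q
      obtain ⟨k, e⟩ := hv _ ⟨x, x.2, rfl⟩
      refine ⟨⟨g ^ k, npow_mem_zpowers g k⟩, QuotientGroup.eq.2 ?_⟩
      change ((g ^ k)⁻¹ * x) • v = v
      rw [mul_smul, inv_smul_eq_iff]
      exact e
  intro e
  have h5 := mem_bot.1 (e ▸ red h.cop (Core.isPGroup_subgroup_iff.1 P.2 g hg) hj)
  have h6 := Nat.le_of_dvd (pow_pos hr.out.pos j) (orderOf_dvd_of_pow_eq_one h5)
  have := Nat.pow_lt_pow_right hr.out.one_lt j.lt_succ_self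
  exact absurd (h3.trans (h4.trans h6)) this.not_ge

end Cfsg.Lib.TC
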