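import Cfsg.Agent.Lib.TC.Kk
import Cfsg.Agent.Lib.Asch.Core
import Mathlib.LinearAlgebra.Matrix.Action

/-!
# Coprime linear groups with two orbits on non-zero vectors (S4881, helper21)
-/

set_option autoImplicit false
set_option linter.unusedSectionVars false

namespace Cfsg.Lib.TC

open Subgroup MulAction Matrix Cfsg.Lib.KT Cfsg.Lib.Asch
open scoped MatrixGroups

variable {p n : ℕ} [hp : Fact p.Prime]

/-- `H` is a `p'`-subgroup of `GLₙ(p)` whose orbits on non-zero vectors are those of `a` and `b`. -/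
structure Hy (H : Subgroup (GL (Fin n) (ZMod p))) (a b : Fin n → ZMod p) : Prop where
  cop : ¬ p ∣ Nat.card H
  a0 : a ≠ 0
  b0 : b ≠ 0
  ne : b ∉ orbit H a
  cov : ∀ v, v ≠ 0 → v ∈ orbit H a ∨ v ∈ orbit H b

/-- the length of the orbit of `v` -/
noncomputable def orb (H : Subgroup (GL (Fin n) (ZMod p))) (v : Fin n → ZMod p) : ℕ := (orbit H v).ncard

variable {H : Subgroup (GL (Fin n) (ZMod p))} {a b u v : Fin n → ZMod p}

theorem smul_def (h : H) (v : Fin n → ZMod p) : h • v = (h : GL (Fin n) (ZMod p)).1 *ᵥ v := rfl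

theorem mem_orb : u ∈ orbit H v ↔ ∃ h ∈ H, h.1 *ᵥ v = u :=
  ⟨fun ⟨h, e⟩ => ⟨h, h.2, e⟩, fun ⟨h, hh, e⟩ => ⟨⟨h, hh⟩, e⟩⟩

theorem orb_eq_index (H : Subgroup (GL (Fin n) (ZMod p))) (v : Fin n → ZMod p) :
    orb H v = (stabilizer H v).index := (index_stabilizer H v).symm

theorem orb_dvd (H : Subgroup (GL (Fin n) (ZMod p))) (v : Fin n → ZMod p) : orb H v ∣ Nat.card H :=
  orb_eq_index H v ▸ index_dvd_card _

theorem orb_pos (H : Subgroup (GL (Fin n) (ZMod p))) (v : Fin n → ZMod p) : 0 < orb H v :=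
  Nat.pos_of_dvd_of_pos (orb_dvd H v) Nat.card_pos

theorem orb_congr (h : u ∈ orbit H v) : orb H u = orb H v := congrArg Set.ncard (orbit_eq_iff.2 h)

theorem ne_zero_of_mem (h : u ∈ orbit H v) (hv : v ≠ 0) : u ≠ 0 := by
  rintro rfl
  obtain ⟨g, e⟩ := mem_orbit_symm.1 h
  exact hv (e.symm.trans (smul_zero g))

namespace Hy

variable (h : Hy H a b)
include h

theorem symm : Hy H b a := ⟨h.cop, h.b0, h.a0, fun e => h.ne (mem_orbit_symm.1 e), fun v hv => (h.cov v hv).symm⟩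

theorem not_both (h1 : v ∈ orbit H a) (h2 : v ∈ orbit H b) : False :=
  h.ne (orbit_eq_iff.2 h1 ▸ mem_orbit_symm.1 h2)

theorem pos : 0 < n := Nat.pos_of_ne_zero fun e => h.a0 (by subst e; exact Subsingleton.elim _ _)

theorem orb_or (hv : v ≠ 0) : orb H v = orb H a ∨ orb H v = orb H b := (h.cov v hv).imp orb_congr orb_congr

theorem add : orb H a + orb H b + 1 = p ^ n := by
  have e : (Set.univ : Set (Fin n → ZMod p)) = insert 0 (orbit H a ∪ orbit H b) :=
    (Set.eq_univ_of_forall fun v => or_iff_not_imp_left.2 (h.cov v)).symm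
  have := congrArg Set.ncard e
  rw [Set.ncard_univ, Nat.card_fun, Nat.card_zmod, Nat.card_fin, Set.ncard_insert_of_notMem
    (fun k => k.elim (fun k => ne_zero_of_mem k h.a0 rfl) fun k => ne_zero_of_mem k h.b0 rfl),
    Set.ncard_union_eq (Set.disjoint_left.2 fun _ h1 h2 => h.not_both h1 h2)] at this
  exact this.symm

theorem card_ge : p ^ n ≤ 2 * Nat.card H + 1 := by
  have := h.add
  have := Nat.le_of_dvd Nat.card_pos (orb_dvd H a)
  have := Nat.le_of_dvd Nat.card_pos (orb_dvd H b)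
  omega

/-- An invariant set of non-zero vectors, non-empty and not all of them, is one of the two orbits. -/
theorem inv_set {S : Set (Fin n → ZMod p)} (hS : ∀ g ∈ H, ∀ v ∈ S, g.1 *ᵥ v ∈ S) (h0 : 0 ∉ S) (h1 : S.Nonempty)
    (h2 : ∃ v, v ≠ 0 ∧ v ∉ S) : S = orbit H a ∨ S = orbit H b := by
  have k : ∀ {u v}, u ∈ orbit H v → (u ∈ S ↔ v ∈ S) := fun {u v} e =>
    ⟨fun hu => let ⟨g, e⟩ := mem_orbit_symm.1 e; e ▸ hS g g.2 u hu, fun hv => let ⟨g, e⟩ := e; e ▸ hS g g.2 v hv⟩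
  have key : ∀ {a b}, Hy H a b → a ∈ S → S = orbit H a := fun {a b} h ha => by
    obtain ⟨v, v0, hv⟩ := h2
    have hb : b ∉ S := fun hb => hv ((h.cov v v0).elim (fun e => (k e).2 ha) fun e => (k e).2 hb)
    exact Set.ext fun u => ⟨fun hu => (h.cov u fun e => h0 (e ▸ hu)).resolve_right fun e => hb ((k e).1 hu),
      fun e => (k e).2 ha⟩
  obtain ⟨u, hu⟩ := h1
  exact (h.cov u fun e => h0 (e ▸ hu)).imp (fun e => key h ((k e).1 hu)) fun e => key h.symm ((k e).1 hu)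

theorem not_dvd {S : Set (Fin n → ZMod p)} (hS : ∀ g ∈ H, ∀ v ∈ S, g.1 *ᵥ v ∈ S) (h0 : 0 ∉ S) (h1 : S.Nonempty)
    (h2 : ∃ v, v ≠ 0 ∧ v ∉ S) : ¬ p ∣ S.ncard := fun e => by
  rcases h.inv_set hS h0 h1 h2 with rfl | rfl
  exacts [h.cop (e.trans (orb_dvd H a)), h.cop (e.trans (orb_dvd H b))]

theorem irr : Irr H := fun W hW => by
  by_contra! k
  refine h.not_dvd (S := (W : Set (Fin n → ZMod p))ᶜ) (fun g hg v hv e => hv ?_) (fun e => e W.zero_mem) ?_ ?_ ?_
  · exact inv_mulVec_mulVec g v ▸ hW _ (H.inv_mem hg) _ e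
  · exact Set.nonempty_compl.2 fun e => k.2 (SetLike.coe_injective e)
  · exact ((Submodule.ne_bot_iff W).1 k.1).imp fun v hv => ⟨hv.2, fun e => e hv.1⟩
  have e := Set.ncard_add_ncard_compl (W : Set (Fin n → ZMod p))
  rw [Nat.card_fun, Nat.card_zmod, Nat.card_fin] at e
  refine (Nat.dvd_add_right ?_).1 (e ▸ dvd_pow_self p h.pos.ne')
  have := Module.natCard_eq_pow_finrank (K := ZMod p) (V := W)
  rw [Nat.card_zmod] at this
  exact (show (W : Set (Fin n → ZMod p)).ncard = _ from this) ▸ dvd_pow_self p (Submodule.finrank_eq_zero.not.2 k.1)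

/-- An abelian subgroup of small index is enough. -/
theorem of_ab {T : Subgroup (GL (Fin n) (ZMod p))} (hT : T ≤ H) (hc : IsMulCommutative T) {i : ℕ}
    (hi : T.relIndex H ≤ i) (hn : (p - 1) * (i * i) + 1 < p ^ n) : p ≤ 2 * kk H := by
  have h1 := card_le_mul_kk hT hT (le_centralizer_iff_isMulCommutative.2 hc)
  have h2 := PGroup.card_mul_relIndex hT
  have h3 := h.card_ge
  by_contra h4
  have : 2 * Nat.card H ≤ (p - 1) * (i * i) :=
    calc _ = 2 * (Nat.card T * T.relIndex H) := by rw [h2]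
      _ ≤ 2 * (i * kk H * i) := Nat.mul_le_mul_left 2 (Nat.mul_le_mul (h1.trans (Nat.mul_le_mul_right _ hi)) hi)
      _ = 2 * kk H * (i * i) := by ring
      _ ≤ _ := Nat.mul_le_mul_right _ (by omega)
  omega

end Hy

end Cfsg.Lib.TC
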