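import Cfsg.Agent.Lib.Prg.Kk

/-!
# Class numbers: small lemmas (S4881, helper21)
-/

set_option autoImplicit false

namespace Cfsg.Lib.TC

open Subgroup Cfsg.Lib.BG Cfsg.Lib.KT Cfsg.Lib.Prg

variable {X : Type*} [Group X] [Finite X] {G N A C Z : Subgroup X}

/-- `kk_mul`: `kk N * |N| = ∑_{x ∈ N} |N ⊓ C(x)| ≤ ∑_{x ∈ G} |G ⊓ C(x)| = kk G * |G|` (`sum_split`), and
`|G| = |N| * N.relIndex G` (`PGroup.card_mul_relIndex`); cancel `|N|`. -/
theorem kk_le_index_mul (h : N ≤ G) : kk N ≤ N.relIndex G * kk G := by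
  classical
  have := Fintype.ofFinite X
  refine Nat.le_of_mul_le_mul_right ?_ (Nat.card_pos (α := N))
  rw [mul_assoc, mul_left_comm, mul_comm (N.relIndex G), PGroup.card_mul_relIndex h, kk_mul, kk_mul, sum_split h]
  exact (Finset.sum_le_sum fun x _ => card_le_of_le (inf_le_inf_right _ h)).trans (Nat.le_add_right _ _)

/-- `kk G * |G| ≥ ∑_{x ∈ A} |G ⊓ C(x)| ≥ |A| * |C|` (as in `Prg.sq_le_kk`) and `|G| = |C| * C.relIndex G`. -/
theorem card_le_mul_kk (hA : A ≤ G) (hC : C ≤ G) (h : C ≤ 𝐂(A)) : Nat.card A ≤ C.relIndex G * kk G := by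
  classical
  have := Fintype.ofFinite X
  refine Nat.le_of_mul_le_mul_right ?_ (Nat.card_pos (α := C))
  rw [mul_assoc, mul_left_comm, mul_comm (C.relIndex G), PGroup.card_mul_relIndex hC, kk_mul, sum_split hA,
    card_eq_sum A, Finset.sum_mul]
  refine (Finset.sum_le_sum fun x hx => ?_).trans (Nat.le_add_right _ _)
  rw [one_mul]
  exact card_le_of_le fun y hy => ⟨hC hy, mem_centralizer_singleton_iff.2 (h hy x (Finset.mem_filter.1 hx).2).symm⟩

/-- `kk G * |G| = ∑_{x ∈ Z} |G| + ∑_{x ∈ G \ Z} |G ⊓ C(x)| > |Z| * |G|`: the second sum has a positive term. -/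
theorem card_lt_kk (hZ : Z ≤ G) (h : Z ≤ 𝐂(G)) (hne : ¬ G ≤ Z) : Nat.card Z < kk G := by
  classical
  have := Fintype.ofFinite X
  obtain ⟨g, hg, gZ⟩ := SetLike.not_le_iff_exists.1 hne
  refine Nat.lt_of_mul_lt_mul_right (a := Nat.card G) ?_
  rw [kk_mul, sum_split hZ, card_eq_sum Z, Finset.sum_mul]
  refine lt_add_of_le_of_pos (Finset.sum_le_sum fun x hx => ?_)
    (Finset.sum_pos (fun _ _ => Nat.card_pos) ⟨g, Finset.mem_filter.2 ⟨Finset.mem_univ g, hg, gZ⟩⟩)
  rw [one_mul]
  exact card_le_of_le fun y hy => ⟨hy, mem_centralizer_singleton_iff.2 (h (Finset.mem_filter.1 hx).2 y hy)⟩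

/-- Landau for three classes.  By `three_le_kk` suppose `kk G = 3`, classes `{1}, a^G, b^G`.  With `n = |G|`,
`c = |C(a)|`, `d = |C(b)|` (both `≥ 2`, dividing `n`) the class equation is `1 + n / c + n / d = n`, i.e.
`c d + n d + n c = n c d`; if `c, d ≥ 3` then `n ≤ 3`; if `c = 2` then `2 d + 2 n = n d`, `(n - 2) (d - 2) = 4`,
`n ≤ 6`.  (E.g. `sum_conjClasses_card_eq_card` / `Group.sum_card_conj_classes_eq_card`, `ConjClasses.card_carrier`,
`Nat.card_eq_three`-style enumeration of `ConjClasses G`.) -/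
theorem four_le_kk (h : 6 < Nat.card G) : 4 ≤ kk G := by
  classical
  by_contra h4
  have h3 := three_le_kk (G := G) (by omega)
  have := Fintype.ofFinite (ConjClasses G)
  have key : ∀ c : ConjClasses G, c ≠ ConjClasses.mk 1 →
      2 * c.carrier.ncard = Nat.card G ∨ 3 * c.carrier.ncard ≤ Nat.card G := by
    rintro ⟨g⟩ hg
    have : Finite (ConjAct G) := inferInstanceAs (Finite G)
    have e := (MulAction.stabilizer (ConjAct G) g).card_mul_index
    rw [MulAction.index_stabilizer, ConjAct.orbit_eq_carrier_conjClasses, Nat.card_congr ConjAct.ofConjAct.toEquiv] at e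
    have := (one_lt_card_iff_ne_bot (MulAction.stabilizer (ConjAct G) g)).2 fun q => hg (congrArg ConjClasses.mk
      (mem_bot.1 (q.le (show ConjAct.toConjAct g ∈ _ from mul_inv_cancel_right g g))))
    rcases (show 2 ≤ _ from this).eq_or_lt with q | q
    exacts [.inl (q ▸ e), .inr ((Nat.mul_le_mul_right _ q).trans e.le)]
  have e := Group.sum_card_conj_classes_eq_card G
  obtain ⟨x, y, ne, q⟩ := Finset.card_eq_two.1 (show (Finset.univ.erase (ConjClasses.mk (1 : G))).card = 2 by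
    rw [Finset.card_erase_of_mem (Finset.mem_univ _), Finset.card_univ, ← Nat.card_eq_fintype_card]
    unfold kk at *
    omega)
  rw [finsum_eq_sum_of_fintype, ← Finset.add_sum_erase _ _ (Finset.mem_univ (ConjClasses.mk 1)), q,
    Finset.sum_pair ne, show (ConjClasses.mk (1 : G)).carrier = {1} from Set.ext fun z => by
      simp [ConjClasses.mem_carrier_iff_mk_eq, ConjClasses.mk_eq_mk_iff_isConj], Set.ncard_singleton] at e
  have := key x (Finset.ne_of_mem_erase (q.ge (by simp)))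
  have := key y (Finset.ne_of_mem_erase (q.ge (by simp)))
  omega

end Cfsg.Lib.TC
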