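import Cfsg.Agent.Lib.TC.Chr
import Cfsg.Agent.Lib.Q4.Basic
import Cfsg.Agent.Lib.Alt.Aut
import Cfsg.Agent.Lib.Prg.Exc
import Cfsg.Agent.S0813
import Cfsg.Agent.S0814

/-!
# Two orbits: the quasisimple case in degree four, orders of automorphism groups (S4881, helper21)
-/

set_option autoImplicit false
set_option linter.unusedSectionVars false

namespace Cfsg.Lib.TC

open Subgroup Matrix Cfsg.Geo Cfsg.Lib.Asch
open Cfsg.Lib.Q4R (Sq)
open scoped MatrixGroups commutatorElement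

variable {p n : ℕ} [hp : Fact p.Prime]

/-- Conjugation `H →* MulAut (Sq P)` (e.g. `QuotientGroup.congr` / `QuotientGroup.map` applied to the automorphism of
`P` induced by `g`; cf. `C6E.exists_act`) has kernel `(scalars).subgroupOf H` (`Q4.comm_of_perfect`,
`mem_scalars_of_commute`); `index_ker`, `card_subgroup_dvd_card`. -/
theorem q_aut {H P : Subgroup (GL (Fin n) (ZMod p))} (hn : 0 < n) (h : PreRes H P) :
    (scalars (Fin n) (ZMod p)).relIndex H ∣ Nat.card (MulAut (Sq P)) := by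
  have : Nonempty (Fin n) := ⟨⟨0, hn⟩⟩
  let β : H →* MulAut P := P.normalizerMonoidHom.comp (inclusion h.nrm)
  have hN : ∀ g : H, ((scalars (Fin n) (ZMod p)).subgroupOf P).map (β g : P →* P) = (scalars _ _).subgroupOf P :=
    fun g => le_antisymm (by rintro _ ⟨v, hv, rfl⟩; exact scalars_normal.conj_mem _ hv g.1) fun v hv =>
      ⟨β g⁻¹ v, scalars_normal.conj_mem _ hv g⁻¹.1, by simp⟩
  let α : H →* MulAut (Sq P) := MonoidHom.mk' (fun g => QuotientGroup.congr _ _ (β g) (hN g))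
    fun a b => MulEquiv.ext fun x => QuotientGroup.induction_on x fun v => by simp
  have hα : ∀ (g : H) (v : P), α g v = (β g v : P) := fun _ _ => rfl
  have k : α.ker = (scalars _ _).subgroupOf H := Subgroup.ext fun g => ⟨fun e =>
    mem_scalars_of_commute h.top (Q4.comm_of_perfect h.perfect fun x hx => by
      have := hα g ⟨x⁻¹, inv_mem hx⟩
      rw [MonoidHom.mem_ker.1 e, MulAut.one_apply, eq_comm, QuotientGroup.eq, mem_subgroupOf] at this
      exact (show (g.1 * x⁻¹ * g.1⁻¹)⁻¹ * x⁻¹ = g.1 * x * g.1⁻¹ * x⁻¹ by group) ▸ this), fun e =>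
    MulEquiv.ext fun x => QuotientGroup.induction_on x fun v => (hα g v).trans (congrArg _ (Subtype.ext
      (mul_inv_eq_iff_eq_mul.2 (Q4.comm_of_scalar e v).symm)))⟩
  rw [relIndex, ← k, index_ker]
  exact card_subgroup_dvd_card _

/-- `pCore r P ≤ (scalars).subgroupOf P` for every prime `r` (its image is a normal `r`-subgroup of the simple
non-abelian group `Sq P`).  It suffices to show `r ^ k ∣ orderOf x → r ^ k ∣ 1260`
(`Nat.dvd_iff_prime_pow_dvd_dvd`): a power `y` of `x` of order `r ^ k` lifts to an `r`-element `g` of `P`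
(`Prg.exists_pow_lift`, `pow_of_primes`); `red` gives `y ^ 4 = 1`, `y ^ 9 = 1`, `y ^ r = 1` for `r = 2`, `3`, `≥ 5`,
and for `r ≥ 11` the Sylow subgroup is normal (`syl_normal`), so `y = 1`. -/
theorem q_exp {P : Subgroup (GL (Fin 4) (ZMod p))} (hc : ¬ p ∣ Nat.card P) (hs : IsSimpleGroup (Sq P))
    (hn : ¬ IsMulCommutative (Sq P)) (x : Sq P) : x ^ 1260 = 1 := by
  let π : P →* Sq P := QuotientGroup.mk' _
  have hπ : Function.Surjective π := QuotientGroup.mk'_surjective _
  refine orderOf_dvd_iff_pow_eq_one.1 ((Nat.dvd_iff_prime_pow_dvd_dvd _ _).2 fun r k hr hk => ?_)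
  have := Fact.mk hr
  have core : ∀ g ∈ pCore r P, π g = 1 := fun g hg => by
    rcases ((inferInstance : (pCore r P).Normal).map π hπ).eq_bot_or_eq_top with e | e
    · exact mem_bot.1 (e ▸ mem_map_of_mem π hg)
    · have : Group.IsNilpotent (Sq P) := ((e ▸ (Core.pCore_isPGroup r P).map π).of_equiv topEquiv).isNilpotent
      exact (hn ⟨⟨IsSimpleGroup.comm_iff_isSolvable.2 inferInstance⟩⟩).elim
  have o := orderOf_pow_orderOf_div (orderOf_pos x).ne' hk
  obtain ⟨y, hy⟩ := hπ (x ^ (orderOf x / r ^ k))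
  obtain ⟨i, h1, h2⟩ := Prg.exists_pow_lift π y
  rw [← hy] at o
  obtain ⟨j, hj⟩ := Prg.pow_of_primes hr (orderOf_pos _).ne' (o ▸ h2)
  rw [← h1] at o
  generalize y ^ i = g at o hj
  have hg : g ^ r ^ j = 1 := hj ▸ pow_orderOf_eq_one g
  have key : ∀ j, 4 ≤ r ^ j → r ^ j ∣ 1260 → r ^ k ∣ 1260 := fun j h4 =>
    (o ▸ orderOf_dvd_of_pow_eq_one ((map_pow π g _).symm.trans (core _ (red hc ⟨_, hg⟩ h4)))).trans
  by_cases h9 : 9 < r
  · obtain ⟨Q, hQ⟩ := (IsPGroup.of_card (G := zpowers g) (p := r) (n := j) (by rw [Nat.card_zpowers, hj])).exists_le_sylow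
    rw [← o, core g (Core.le_pCore (syl_normal hc h9 Q) Q.2 (hQ (mem_zpowers g))), orderOf_one]
    exact one_dvd _
  have := hr.two_le
  replace h9 := not_lt.1 h9
  interval_cases r <;> first | exact key 2 (by decide) (by decide) | exact key 1 (by decide) (by decide) |
    exact absurd hr (by decide)

/-- `diag(c, c⁻¹) ^ 1260` is central, so `c ^ 2520 = 1` for a generator `c` of `Kˣ`: `q - 1 ∣ 2520`.  Every prime
divisor of `|PSL(2, K)| = q (q² - 1) / 2` (`PSL2.card_PSL2_mul`) divides `1260` (Cauchy): the characteristic is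
`3, 5, 7`, so `q ∈ {5, 7, 9, 25}`, and `13 ∣ |L₂(25)|`. -/
theorem q_l2 {K : Type} [Field K] [Fintype K] (ho : Odd (Fintype.card K)) (h5 : 5 ≤ Fintype.card K)
    (h : ∀ x : PSL(2, K), x ^ 1260 = 1) : Fintype.card K = 5 ∨ Fintype.card K = 7 ∨ Fintype.card K = 9 := by
  obtain ⟨c, hc⟩ := IsCyclic.exists_generator (α := Kˣ)
  have h1 := congrArg (fun x => (PSL2.pslEquiv K x).1) (h ((PSL2.pslEquiv K).symm
    ⟨PSL2.aff (c * c) 0, (PSL2.aff_mem_pslSub_iff _ _).2 ⟨c, rfl⟩⟩))
  simp only [map_pow, MulEquiv.apply_symm_apply, map_one, SubgroupClass.coe_pow, OneMemClass.coe_one,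
    PSL2.aff_zero_pow, PSL2.aff_eq_one_iff, and_true] at h1
  have h2 := orderOf_dvd_of_pow_eq_one (n := 2 * 1260) (x := c) (by rwa [pow_mul, pow_two])
  rw [orderOf_eq_card_of_forall_mem_zpowers hc, Nat.card_units, Nat.card_eq_fintype_card] at h2
  have h3 := PSL2.card_PSL2_mul (K := K)
  rw [Nat.card_eq_fintype_card (α := K)] at h3
  have key : ∀ r, r.Prime → r ≠ 2 → r ∣ Fintype.card K * (Fintype.card K ^ 2 - 1) → r ∣ 1260 := fun r hr r2 hd => by
    have := Fact.mk hr
    obtain ⟨x, rfl⟩ := exists_prime_orderOf_dvd_card' r ((hr.dvd_mul.1 (h3 ▸ hd)).resolve_left fun q =>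
      r2 ((Nat.prime_dvd_prime_iff_eq hr Nat.prime_two).1 (q.trans (Nat.gcd_dvd_left _ _))))
    exact orderOf_dvd_of_pow_eq_one (h x)
  obtain ⟨r, _, ⟨n, n0⟩, hr, e⟩ := FiniteField.card' K
  have h13 := key 13 (by norm_num) (by norm_num)
  replace e : Fintype.card K = r ^ n := e
  rw [e] at h2 h5 ho key h13 ⊢
  have r2 : r ≠ 2 := by
    rintro rfl
    exact absurd ho (Nat.not_odd_iff_even.2 (even_two.pow_of_ne_zero n0.ne'))
  have h7 := (Nat.Prime.dvd_mul hr).1 (show r ∣ 2 ^ 2 * (3 ^ 2 * (5 * 7)) from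
    key r hr r2 ((dvd_pow_self r n0.ne').mul_right _))
  simp only [hr.dvd_mul, hr.prime.dvd_pow_iff_dvd two_ne_zero, Nat.prime_dvd_prime_iff_eq hr Nat.prime_two,
    Nat.prime_dvd_prime_iff_eq hr Nat.prime_three, Nat.prime_dvd_prime_iff_eq hr Nat.prime_five,
    Nat.prime_dvd_prime_iff_eq hr Nat.prime_seven, r2, false_or] at h7
  have h8 : n < 8 := lt_of_not_ge fun q => by
    have := (Nat.pow_le_pow_left (show 3 ≤ r by omega) 8).trans (Nat.pow_le_pow_right hr.pos q)
    have := Nat.le_of_dvd (by norm_num) h2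
    omega
  clear key e h3
  rcases h7 with rfl | rfl | rfl <;> interval_cases n <;> simp_all

/-- `S0813`, `PSL2.card_PGL2`: `120, 336, 1440`. -/
theorem aut_l2 {K : Type} [Field K] [Fintype K] (h : Fintype.card K = 5 ∨ Fintype.card K = 7 ∨ Fintype.card K = 9) :
    Nat.card (MulAut PSL(2, K)) ∣ 5040 ∨ Nat.card (MulAut PSL(2, K)) ∣ 46080 := by
  have : Fact (Nat.Prime 5) := ⟨by norm_num⟩
  have : Fact (Nat.Prime 7) := ⟨by norm_num⟩
  have e := PSL2.card_PGL2 (K := K)
  rw [Nat.card_eq_fintype_card (α := K)] at e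
  rcases h with h | h | h
  · rw [Cfsg.Agent.S0813.result 5 1 le_rfl h 2 le_rfl (by norm_num), e, h]; norm_num
  · rw [Cfsg.Agent.S0813.result 7 1 le_rfl h 2 le_rfl (by norm_num), e, h]; norm_num
  · rw [Cfsg.Agent.S0813.result 3 2 one_le_two h 2 le_rfl (by norm_num), e, h]; norm_num

/-- `Alt.conjNormal_bijective`. -/
theorem aut_a7 : Nat.card (MulAut (alternatingGroup (Fin 7))) = 5040 := by
  rw [← Nat.card_congr (Equiv.ofBijective _ (Alt.conjNormal_bijective (α := Fin 7) (by simp) (by simp))), Nat.card_perm]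
  simp [Nat.factorial]

/-- `S0814`, `Symp.card_psp_mul`, `Symp.card_sp` (cf. `IA/U4C.card_psp43`). -/
theorem aut_psp {K : Type} [Field K] [Fintype K] (h : Fintype.card K = 3) : Nat.card (MulAut (PSp 2 K)) = 51840 := by
  have a := Symp.card_psp_mul (l := Fin 2) (F := K)
  rw [Symp.card_sp, Nat.card_eq_fintype_card (α := K), h, Fintype.card_fin] at a
  rw [Cfsg.Agent.S0814.result 3 1 le_rfl h 2 le_rfl (by norm_num),
    show Nat.card (PSp 2 K) = 25920 from Nat.eq_of_mul_eq_mul_left two_pos (a.trans (by decide))]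
  norm_num

end Cfsg.Lib.TC
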