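import Cfsg.Agent.Lib.TC.Def
import Cfsg.Agent.Lib.TC.Num

/-!
# Two orbits: the dual action and the orbit lengths (S4881, helper21)
-/

set_option autoImplicit false
set_option linter.unusedSectionVars false

namespace Cfsg.Lib.TC

open Subgroup MulAction Matrix Cfsg.Lib.Asch
open scoped MatrixGroups

variable {p n : ℕ} [hp : Fact p.Prime] {H : Subgroup (GL (Fin n) (ZMod p))} {a b : Fin n → ZMod p}

/-- inverse transpose -/
def iT : GL (Fin n) (ZMod p) →* GL (Fin n) (ZMod p) :=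
  MonoidHom.mk' (fun g => ⟨g⁻¹.1ᵀ, g.1ᵀ, by rw [← transpose_mul, Units.mul_inv, transpose_one],
    by rw [← transpose_mul, Units.inv_mul, transpose_one]⟩) fun g h =>
      Units.ext (by simp only [_root_.mul_inv_rev, Units.val_mul, transpose_mul])

theorem iT_val (g : GL (Fin n) (ZMod p)) : (iT g).1 = g⁻¹.1ᵀ := rfl

theorem iT_iT (g : GL (Fin n) (ZMod p)) : iT (iT g) = g := Units.ext (transpose_transpose _)

theorem iT_inj : Function.Injective (iT : GL (Fin n) (ZMod p) → _) := Function.LeftInverse.injective iT_iT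

theorem map_iT_iT (H : Subgroup (GL (Fin n) (ZMod p))) : (H.map iT).map iT = H := by
  rw [Subgroup.map_map, show iT.comp iT = MonoidHom.id _ from MonoidHom.ext iT_iT, Subgroup.map_id]

/-- `E = ∑_{g ∈ S} g` has `E v = |S| v ≠ 0`, so some row `φ` of `E` is non-zero, and `E g⁻¹ = E` gives
`(g⁻¹)ᵀ φ = φ ᵥ* g⁻¹ = φ` (`mulVec_transpose`). -/
theorem fix_dual {S : Subgroup (GL (Fin n) (ZMod p))} (hS : ¬ p ∣ Nat.card S) {v : Fin n → ZMod p} (hv : v ≠ 0)
    (h : ∀ g ∈ S, g.1 *ᵥ v = v) : ∃ φ : Fin n → ZMod p, φ ≠ 0 ∧ ∀ g ∈ S, (iT g).1 *ᵥ φ = φ := by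
  have := Fintype.ofFinite S
  let E : Matrix (Fin n) (Fin n) (ZMod p) := ∑ g : S, g.1.1
  have h1 : E *ᵥ v = (Nat.card S : ZMod p) • v := by
    rw [sum_mulVec, Finset.sum_congr rfl fun g _ => h g.1 g.2, Finset.sum_const, Finset.card_univ,
      Nat.card_eq_fintype_card, Nat.cast_smul_eq_nsmul]
  obtain ⟨i, hi⟩ : ∃ i, E i ≠ 0 := by
    by_contra! k
    rw [show E = 0 from funext k, zero_mulVec, eq_comm, smul_eq_zero, ZMod.natCast_eq_zero_iff] at h1
    exact h1.elim hS hv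
  refine ⟨E i, hi, fun g hg => ?_⟩
  have : E * g⁻¹.1 = E := by
    rw [Finset.sum_mul]
    exact Fintype.sum_equiv (Equiv.mulRight (⟨g, hg⟩ : S)⁻¹) _ _ fun _ => rfl
  rw [iT_val, mulVec_transpose]
  exact congrFun this i

theorem card_fix_rank (M : Matrix (Fin n) (Fin n) (ZMod p)) :
    Nat.card {v : Fin n → ZMod p // M *ᵥ v = v} = p ^ (n - (M - 1).rank) := by
  have h := (M - 1).mulVecLin.finrank_range_add_finrank_ker
  rw [Module.finrank_fin_fun] at h
  rw [Nat.card_congr (Equiv.subtypeEquivRight (q := (· ∈ LinearMap.ker (M - 1).mulVecLin)) fun v => by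
    simp [sub_eq_zero]), Module.natCard_eq_pow_finrank (K := ZMod p), Nat.card_zmod, Matrix.rank]
  congr 1
  omega

theorem three_iff : Nat.card (orbitRel.Quotient H (Fin n → ZMod p)) = 3 ↔
    ∃ a b : Fin n → ZMod p, a ≠ 0 ∧ b ≠ 0 ∧ b ∉ orbit H a ∧ ∀ v, v ≠ 0 → v ∈ orbit H a ∨ v ∈ orbit H b := by
  classical
  let c0 : orbitRel.Quotient H (Fin n → ZMod p) := Quotient.mk _ 0
  have hc : Nat.card {c // c ≠ c0} + 1 = Nat.card (orbitRel.Quotient H (Fin n → ZMod p)) := by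
    rw [← Finite.card_option]
    exact Nat.card_congr (Equiv.optionSubtypeNe c0)
  have ne : ∀ v : Fin n → ZMod p, v ≠ 0 → Quotient.mk _ v ≠ c0 := fun v hv e =>
    ne_zero_of_mem (Quotient.exact e.symm) hv rfl
  rw [← hc, show 3 = 2 + 1 from rfl, Nat.add_right_cancel_iff, Nat.card_eq_two_iff]
  constructor
  · rintro ⟨⟨⟨a⟩, ha⟩, ⟨⟨b⟩, hb⟩, h1, h2⟩
    exact ⟨a, b, fun e => ha (e ▸ rfl), fun e => hb (e ▸ rfl), fun e => h1 (Subtype.ext (Quotient.sound e).symm),
      fun v hv => (h2.ge (Set.mem_univ ⟨_, ne v hv⟩)).imp (fun e => Quotient.exact (congrArg Subtype.val e))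
        fun e => Quotient.exact (congrArg Subtype.val e)⟩
  · rintro ⟨a, b, ha, hb, h1, h2⟩
    refine ⟨⟨_, ne a ha⟩, ⟨_, ne b hb⟩, fun e => h1 (Quotient.exact (congrArg Subtype.val e).symm),
      Set.eq_univ_of_forall ?_⟩
    rintro ⟨⟨v⟩, hv⟩
    exact (h2 v fun e => hv (e ▸ rfl)).imp (fun e => Subtype.ext (Quotient.sound e))
      fun e => Subtype.ext (Quotient.sound e)

theorem card_map_iT (H : Subgroup (GL (Fin n) (ZMod p))) : Nat.card (H.map iT) = Nat.card H :=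
  card_map_of_injective iT_inj

/-- Both sides are `p ^ (n - rank (g - 1))`: `(g⁻¹)ᵀ v = v ↔ (g - 1)ᵀ v = 0`, `rank_transpose`, rank-nullity. -/
theorem card_fix_dual (g : GL (Fin n) (ZMod p)) :
    Nat.card {v : Fin n → ZMod p // (iT g).1 *ᵥ v = v} = Nat.card {v : Fin n → ZMod p // g.1 *ᵥ v = v} := by
  rw [card_fix_rank, iT_val, ← transpose_one, ← transpose_sub, rank_transpose, ← card_fix_rank]
  exact Nat.card_congr (Equiv.subtypeEquivRight fun v => (inv_smul_eq_iff (g := g)).trans eq_comm)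

/-- Burnside's lemma (`MulAction.sum_card_fixedBy_eq_card_orbits_mul_card_group`, `card_fix_dual`,
`H ≃* H.map iT`): the dual group also has three orbits on vectors, `{0}` being one of them. -/
theorem Hy.dual_aux (h : Hy H a b) : ∃ a' b', Hy (H.map iT) a' b' := by
  classical
  have key : ∀ K : Subgroup (GL (Fin n) (ZMod p)), ∑ᶠ g : K, Nat.card {v : Fin n → ZMod p // g.1.1 *ᵥ v = v} =
      Nat.card (orbitRel.Quotient K (Fin n → ZMod p)) * Nat.card K := fun K => by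
    have := Fintype.ofFinite K
    have := Fintype.ofFinite (orbitRel.Quotient K (Fin n → ZMod p))
    have := sum_card_fixedBy_eq_card_orbits_mul_card_group K (Fin n → ZMod p)
    simp only [← Nat.card_eq_fintype_card] at this
    rw [finsum_eq_sum_of_fintype]
    exact this
  have h1 := key (H.map iT)
  rw [← finsum_comp_equiv (H.equivMapOfInjective iT iT_inj).toEquiv, card_map_iT,
    finsum_congr (g := fun g : H => Nat.card {v : Fin n → ZMod p // g.1.1 *ᵥ v = v}) fun g => by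
      exact card_fix_dual g.1, key,
    three_iff.2 ⟨a, b, h.a0, h.b0, h.ne, h.cov⟩] at h1
  obtain ⟨a', b', h2, h3, h4, h5⟩ := three_iff.1 (Nat.eq_of_mul_eq_mul_right Nat.card_pos h1).symm
  exact ⟨a', b', card_map_iT H ▸ h.cop, h2, h3, h4, h5⟩

theorem le_dual (hc : ¬ p ∣ Nat.card H) (ha : a ≠ 0) : ∃ φ, φ ≠ 0 ∧ orb (H.map iT) φ ≤ orb H a := by
  obtain ⟨φ, h0, hφ⟩ := fix_dual (S := (stabilizer H a).map H.subtype)
    (fun q => hc (q.trans (card_dvd_of_le (map_subtype_le _)))) ha (by rintro _ ⟨g, hg, rfl⟩; exact hg)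
  have h1 := Nat.card_le_card_of_injective (fun g : stabilizer H a =>
    (⟨⟨iT g.1.1, mem_map_of_mem _ g.1.2⟩, hφ _ ⟨g, g.2, rfl⟩⟩ : stabilizer (H.map iT) φ))
    fun g k e => Subtype.ext (Subtype.ext (iT_inj (congrArg (fun x => x.1.1) e)))
  have h2 := (stabilizer (H.map iT) φ).card_mul_index
  rw [card_map_iT, ← (stabilizer H a).card_mul_index, ← orb_eq_index, ← orb_eq_index] at h2
  exact ⟨φ, h0, Nat.le_of_mul_le_mul_left (h2.le.trans (Nat.mul_le_mul_right _ h1)) Nat.card_pos⟩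

/-- Let `α = orb H a ≤ β = orb H b` (symmetry: `Hy.symm`).  By `fix_dual` (for the dual group, `map_iT_iT`) the
stabiliser of a non-zero `φ` in `H.map iT` maps into the stabiliser of a non-zero `v` in `H`, so every dual orbit
has length `≥ α`; the stabiliser of `a` maps into the stabiliser of some `φ ≠ 0`, whose orbit has length `≤ α`
(`orb_eq_index`, `card_mul_index`).  So one of `a', b'` has length `α` (`orb_or`), the other `β` (`Hy.add`). -/
theorem Hy.dual (h : Hy H a b) :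
    ∃ a' b', Hy (H.map iT) a' b' ∧ orb (H.map iT) a' = orb H a ∧ orb (H.map iT) b' = orb H b := by
  obtain ⟨a', b', k⟩ := h.dual_aux
  obtain ⟨u, u0, hu⟩ := le_dual h.cop h.a0
  obtain ⟨v, v0, hv⟩ := le_dual h.cop h.b0
  obtain ⟨u', u0', hu'⟩ := le_dual k.cop k.a0
  obtain ⟨v', v0', hv'⟩ := le_dual k.cop k.b0
  rw [map_iT_iT] at hu' hv'
  have := h.add
  have := k.add
  have := k.orb_or u0
  have := k.orb_or v0
  have := h.orb_or u0'
  have := h.orb_or v0'
  by_cases e : orb (H.map iT) a' = orb H a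
  · exact ⟨a', b', k, e, by omega⟩
  · exact ⟨b', a', k.symm, by omega, by omega⟩

open Classical in
/-- `T φ = ∑_{v ∈ A} ψ (φ ⬝ᵥ v)` for a primitive additive character `ψ` of `ZMod p` (`ZMod.stdAddChar`,
`AddChar.sum_mulShift`), or `T φ = (p N φ - |A|) / (p - 1)` with `N φ = #{v ∈ A | φ ⬝ᵥ v = 0}`; `p - 1` divides
`|A|` and `N φ` since `(ZMod p)ˣ` acts freely on these sets.  Summing over `c ≠ 0`:
`(p - 1) T φ = ∑_{v ∈ A} ∑_{c ≠ 0} ψ (c φ ⬝ᵥ v) = p N φ - |A|`.  Orthogonality: `∑_φ ψ (φ ⬝ᵥ w) = pⁿ [w = 0]`, and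
`v + w = 0` has exactly `|A|` solutions in `A²` (`c = -1`). -/
theorem srg_count {A : Finset (Fin n → ZMod p)} (h0 : 0 ∉ A) (hZ : ∀ c : ZMod p, c ≠ 0 → ∀ v ∈ A, c • v ∈ A) :
    ∃ T : (Fin n → ZMod p) → ℤ, T 0 = A.card ∧ ∑ φ, T φ = 0 ∧ ∑ φ, T φ ^ 2 = (p : ℤ) ^ n * A.card ∧
      ∀ φ φ', (A.filter (φ ⬝ᵥ · = 0)).card = (A.filter (φ' ⬝ᵥ · = 0)).card → T φ = T φ' := by
  let ψ : AddChar (ZMod p) ℂ := ZMod.stdAddChar
  have ψ1 : ψ 1 ≠ 1 := fun e => one_ne_zero (ZMod.injective_stdAddChar (e.trans ψ.map_zero_eq_one.symm))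
  let N : (Fin n → ZMod p) → ZMod p → ℤ := fun φ c => (A.filter (φ ⬝ᵥ · = c)).card
  have fib : ∀ φ c, c ≠ 0 → N φ c = N φ 1 := fun φ c hc => congrArg Nat.cast (Finset.card_nbij' (c⁻¹ • ·) (c • ·)
    (fun v hv => by
      simp only [Finset.coe_filter, Set.mem_ofPred_eq, dotProduct_smul, smul_eq_mul] at hv ⊢
      exact ⟨hZ _ (inv_ne_zero hc) v hv.1, by rw [hv.2, inv_mul_cancel₀ hc]⟩)
    (fun v hv => by
      simp only [Finset.coe_filter, Set.mem_ofPred_eq, dotProduct_smul, smul_eq_mul] at hv ⊢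
      exact ⟨hZ _ hc v hv.1, by rw [hv.2, mul_one]⟩)
    (fun v _ => smul_inv_smul₀ hc v) fun v _ => inv_smul_smul₀ hc v)
  have key : ∀ φ (f : ZMod p → ℂ), ∑ v ∈ A, f (φ ⬝ᵥ v) = N φ 1 * ∑ c, f c + (N φ 0 - N φ 1 : ℤ) * f 0 := fun φ f => by
    rw [← Finset.sum_fiberwise' A (φ ⬝ᵥ ·) f, Finset.mul_sum, ← Finset.sum_ite_eq_of_mem' Finset.univ (0 : ZMod p)
      (fun _ => ((N φ 0 - N φ 1 : ℤ) : ℂ) * f 0) (Finset.mem_univ _), ← Finset.sum_add_distrib]
    refine Finset.sum_congr rfl fun c _ => ?_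
    rw [Finset.sum_const, nsmul_eq_mul, ← Int.cast_natCast]
    split_ifs with e
    · rw [e]; push_cast [N]; ring
    · rw [add_zero, ← fib φ c e]
  have hT : ∀ φ, ((N φ 0 - N φ 1 : ℤ) : ℂ) = ∑ v ∈ A, ψ (φ ⬝ᵥ v) := fun φ => by
    rw [key, AddChar.sum_eq_zero_of_ne_one fun e => ψ1 (by rw [e, AddChar.one_apply]), ψ.map_zero_eq_one, mul_zero,
      zero_add, mul_one]
  have orth : ∀ w : Fin n → ZMod p, ∑ φ, ψ (φ ⬝ᵥ w) = if w = 0 then (p : ℂ) ^ n else 0 := fun w => by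
    split_ifs with e
    · simp [e]
    obtain ⟨i, hi⟩ := Function.ne_iff.1 e
    exact AddChar.sum_eq_zero_of_ne_one (ψ := ψ.compAddMonoidHom (.mk' (· ⬝ᵥ w) fun x y => add_dotProduct x y w))
      fun q => ψ1 (by simpa [inv_mul_cancel₀ hi] using DFunLike.congr_fun q (Pi.single i (w i)⁻¹))
  refine ⟨fun φ => N φ 0 - N φ 1, by simp [N], Int.cast_injective (α := ℂ) ?_, Int.cast_injective (α := ℂ) ?_,
    fun φ φ' e => ?_⟩
  · simp only [Int.cast_sum, hT, Int.cast_zero]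
    rw [Finset.sum_comm]
    exact Finset.sum_eq_zero fun v hv => (orth v).trans (if_neg fun e : v = 0 => h0 (e ▸ hv))
  · simp only [Int.cast_sum, Int.cast_pow, hT, sq, Int.cast_mul, Finset.sum_mul_sum, ← AddChar.map_add_eq_mul,
      ← dotProduct_add, Int.cast_natCast]
    rw [Finset.sum_comm, mul_comm, ← nsmul_eq_mul, ← Finset.sum_const]
    refine Finset.sum_congr rfl fun v hv => ?_
    rw [Finset.sum_comm]
    simp only [orth, add_eq_zero_iff_neg_eq]
    exact Finset.sum_ite_eq_of_mem _ _ _ (neg_one_smul (ZMod p) v ▸ hZ _ (neg_ne_zero.2 one_ne_zero) v hv)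
  · have h1 := (key φ fun _ => 1).symm.trans (key φ' fun _ => 1)
    have e' : N φ 0 = N φ' 0 := congrArg Nat.cast e
    simp only [Finset.sum_const, Finset.card_univ, ZMod.card, nsmul_eq_mul, mul_one, e'] at h1
    have h2 : N φ 1 * p + (N φ' 0 - N φ 1) = N φ' 1 * p + (N φ' 0 - N φ' 1) := by exact_mod_cast h1
    have h3 : (p : ℤ) - 1 ≠ 0 := sub_ne_zero.2 (by exact_mod_cast hp.out.ne_one)
    change N φ 0 - N φ 1 = N φ' 0 - N φ' 1
    rw [e', mul_right_cancel₀ h3 (show N φ 1 * (p - 1) = N φ' 1 * (p - 1) by linear_combination h2)]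

/-- the orbits are closed under scalars -/
def Zi (H : Subgroup (GL (Fin n) (ZMod p))) : Prop := ∀ c : ZMod p, c ≠ 0 → ∀ v : Fin n → ZMod p, c • v ∈ orbit H v

/-- If `c • a ∈ orbit H b` then `v ↦ c • v` maps `orbit H a` bijectively onto `orbit H (c • a) = orbit H b`.
Otherwise `orbit H a` is closed under scalars, hence so is its complement `orbit H b` (use `c⁻¹`). -/
theorem Hy.half_or (h : Hy H a b) : orb H a = orb H b ∨ Zi H := by
  refine or_iff_not_imp_left.2 fun e => ?_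
  have h1 : ∀ c : ZMod p, c ≠ 0 → ∀ v ∈ orbit H a, c • v ∈ orbit H a := by
    rintro c hc _ ⟨g, rfl⟩
    rw [show c • g • a = g • c • a from (mulVec_smul g.1.1 c a).symm]
    refine mem_orbit_of_mem_orbit g ((h.cov _ (smul_ne_zero hc h.a0)).resolve_right fun k => e ?_)
    rw [← orb_congr k, orb_eq_index, orb_eq_index]
    refine congrArg index (Subgroup.ext fun x => ?_)
    rw [mem_stabilizer_iff, mem_stabilizer_iff, smul_def, smul_def, mulVec_smul, smul_right_inj hc]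
  intro c hc v
  by_cases v0 : v = 0
  · rw [v0, smul_zero]; exact mem_orbit_self _
  rcases h.cov v v0 with k | k <;> rw [orbit_eq_iff.2 k]
  · exact h1 c hc v k
  · exact (h.cov _ (smul_ne_zero hc v0)).resolve_left fun q =>
      h.not_both (inv_smul_smul₀ hc v ▸ h1 _ (inv_ne_zero hc) _ q) k

theorem Hy.sum (h : Hy H a b) {F : (Fin n → ZMod p) → ℤ} (hF : ∀ (g : H) v, F (g • v) = F v) :
    ∑ v, F v = F 0 + orb H a * F a + orb H b * F b := by
  classical
  have k : ∀ a, ∑ v ∈ (Set.toFinite (orbit H a)).toFinset, F v = orb H a * F a := fun a => by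
    rw [Finset.sum_congr rfl (g := fun _ => F a) fun v hv => by
      obtain ⟨g, rfl⟩ := (Set.Finite.mem_toFinset _).1 hv
      exact hF g a, Finset.sum_const, nsmul_eq_mul, orb, Set.ncard_eq_toFinset_card]
  rw [← k, ← k, add_assoc, ← Finset.sum_union (Finset.disjoint_left.2 fun v h1 h2 =>
    h.not_both ((Set.Finite.mem_toFinset _).1 h1) ((Set.Finite.mem_toFinset _).1 h2)), ← Finset.sum_insert (by
      simp only [Finset.mem_union, Set.Finite.mem_toFinset]
      exact fun k => k.elim (fun k => ne_zero_of_mem k h.a0 rfl) fun k => ne_zero_of_mem k h.b0 rfl)]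
  refine Finset.sum_congr (Finset.eq_univ_of_forall fun v => ?_).symm fun _ _ => rfl
  simp only [Finset.mem_insert, Finset.mem_union, Set.Finite.mem_toFinset]
  exact or_iff_not_imp_left.2 (h.cov v)

/-- `srg_count` for `A = orbit H a`; `T` is constant on the dual orbits (`(iT g φ) ⬝ᵥ (g v) = φ ⬝ᵥ v`), split the
sums along `{0}`, `orbit a'`, `orbit b'` from `Hy.dual`; `num_srg`. -/
theorem Hy.srg (h : Hy H a b) (hZ : Zi H) : ∃ m, n = 2 * m ∧
    ((p ^ m - 1 ∣ orb H a ∧ p ^ m - 1 ∣ orb H b) ∨ (p ^ m + 1 ∣ orb H a ∧ p ^ m + 1 ∣ orb H b)) := by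
  classical
  obtain ⟨a', b', k, ea, eb⟩ := h.dual
  obtain ⟨T, h0, h1, h2, h3⟩ := srg_count (A := (Set.toFinite (orbit H a)).toFinset)
    (fun q => ne_zero_of_mem ((Set.Finite.mem_toFinset _).1 q) h.a0 rfl) fun c hc v hv => by
      rw [Set.Finite.mem_toFinset] at hv ⊢
      exact orbit_eq_iff.2 hv ▸ hZ c hc v
  have hT : ∀ (g : H.map iT) φ, T (g • φ) = T φ := by
    rintro ⟨_, g, hg, rfl⟩ φ
    refine (h3 _ _ (Finset.card_nbij' ((⟨g, hg⟩ : H) • ·) ((⟨g, hg⟩ : H)⁻¹ • ·) (fun v hv => ?_) (fun v hv => ?_)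
      (fun v _ => inv_smul_smul _ v) fun v _ => smul_inv_smul _ v)).symm
    all_goals
      simp only [Finset.coe_filter, Set.mem_ofPred_eq, Set.Finite.mem_toFinset] at hv ⊢
      refine ⟨mem_orbit_of_mem_orbit _ hv.1, ?_⟩
      rw [← hv.2, smul_def, smul_def, iT_val, mulVec_transpose, ← dotProduct_mulVec]
    · rw [inv_mulVec_mulVec]
    · rfl
  rw [k.sum hT, ea, eb] at h1
  rw [k.sum (F := fun φ => T φ ^ 2) fun g φ => by rw [hT], ea, eb] at h2
  rw [← Set.ncard_eq_toFinset_card] at h0 h2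
  exact num_srg hp.out (orb_pos H a) (orb_pos H b) h.add (h0 ▸ h1) (h0 ▸ h2)

end Cfsg.Lib.TC
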