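import Cfsg.Agent.Lib.TC.Def
import Cfsg.Agent.Lib.Asch.Conv
import Cfsg.Agent.Lib.PGroup.SectionRep
import Mathlib.FieldTheory.ChevalleyWarning

/-!
# Two orbits: quadratic forms and the extraspecial case in degree four (S4881, helper21)
-/

set_option autoImplicit false
set_option linter.unusedSectionVars false

namespace Cfsg.Lib.TC

open Subgroup MulAction Matrix Cfsg.Geo Cfsg.Lib.KT Cfsg.Lib.Asch
open scoped MatrixGroups commutatorElement

variable {p n : ℕ} [hp : Fact p.Prime]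

/-- `f v v = ∑ᵢⱼ f eᵢ eⱼ vᵢ vⱼ` is the value of an `MvPolynomial` of total degree `≤ 2 < n`, so `p` divides the number
of its zeros (`char_dvd_card_solutions`), hence also the size of `S = {v | f v v ≠ 0}`.  `S` is invariant, non-empty
(`f (u + v) (u + v) = f u u + f v v + 2 f u v`, `nondeg`), misses `0` and misses a non-zero vector (there are at
least `p` zeros): against `Hy.not_dvd`. -/
theorem Hy.no_quad {H : Subgroup (GL (Fin n) (ZMod p))} {a b : Fin n → ZMod p} (h : Hy H a b) (h2 : p ≠ 2) (h3 : 3 ≤ n)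
    {f : (Fin n → ZMod p) → (Fin n → ZMod p) → ZMod p} (hf : SForm (RingHom.id _) 1 f) :
    ¬ H ≤ similarityGroup f := by
  classical
  intro hH
  let q : MvPolynomial (Fin n) (ZMod p) := ∑ i, ∑ j, MvPolynomial.X i * MvPolynomial.C (gramMatrix f i j) * MvPolynomial.X j
  have hq : ∀ v, MvPolynomial.eval v q = f v v := fun v => by simp [q, hf.eq_gram v v, formOfGram]
  have hd : q.totalDegree ≤ 2 := MvPolynomial.totalDegree_finsetSum_le fun i _ =>
    MvPolynomial.totalDegree_finsetSum_le fun j _ => (MvPolynomial.totalDegree_mul _ _).trans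
      ((Nat.add_le_add_right (MvPolynomial.totalDegree_mul _ _) _).trans (by simp))
  have h4 := char_dvd_card_solutions p (f := q) (by rw [Fintype.card_fin]; omega)
  simp only [hq] at h4
  rw [← Nat.card_eq_fintype_card] at h4
  change p ∣ {v | f v v = 0}.ncard at h4
  have h0 : (0 : Fin n → ZMod p) ∈ {v | f v v = 0} := hf.zero_left 0
  refine h.not_dvd (S := {v | f v v = 0}ᶜ) (fun g hg v hv e => hv ?_) (fun e => e h0) ?_ ?_ ?_
  · obtain ⟨c, hc⟩ := hH hg
    exact (mul_eq_zero.1 ((hc v v).symm.trans e)).resolve_left c.ne_zero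
  · by_contra k
    have k : ∀ v, f v v = 0 := fun v => by_contra fun e => k ⟨v, e⟩
    refine h.a0 (hf.nondeg a fun x => ?_)
    have e := k (x + a)
    rw [hf.add_left, hf.add_right, hf.add_right, k, k, hf.herm a x, one_mul, RingHom.id_apply, zero_add, add_zero,
      ← two_mul] at e
    exact (mul_eq_zero.1 e).resolve_left fun e => h2 ((Nat.prime_dvd_prime_iff_eq hp.out Nat.prime_two).1
      ((ZMod.natCast_eq_zero_iff 2 p).1 (by exact_mod_cast e)))
  · obtain ⟨v, hv, v0⟩ := Set.exists_ne_of_one_lt_ncard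
      (hp.out.one_lt.trans_le (Nat.le_of_dvd ((Set.ncard_pos (Set.toFinite _)).2 ⟨0, h0⟩) h4)) 0
    exact ⟨v, v0, fun e => e hv⟩
  have e := Set.ncard_add_ncard_compl {v | f v v = 0}
  rw [Nat.card_fun, Nat.card_zmod, Nat.card_fin] at e
  exact (Nat.dvd_add_right h4).1 (e ▸ dvd_pow_self p (by omega))

theorem x_mod {G : Type*} [Group G] [Finite G] {Z M : Subgroup G} [Z.Normal] {g : G} (h7 : g ^ 7 ∈ Z)
    (hg : g ∈ normalizer (M : Set G)) : Z.relIndex M ≡ Z.relIndex (M ⊓ PGroup.commStab Z {g}) [MOD 7] := by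
  have : Fact (Nat.Prime 7) := ⟨by norm_num⟩
  let π := QuotientGroup.mk' Z
  have hA : IsPGroup 7 (zpowers (π g)) := PGroup.elemAb_isPGroup (PGroup.elemAb_zpowers
    ((QuotientGroup.eq_one_iff (g ^ 7)).2 h7))
  have hT : zpowers (π g) ≤ normalizer (M.map π : Set _) := zpowers_le.2 (le_normalizer_map π (mem_map_of_mem π hg))
  let _ : MulAction (zpowers (π g)) (M.map π) := MulAction.compHom _ (inclusion hT)
  have h := hA.card_modEq_card_fixedPoints (M.map π)
  have e : Nat.card (fixedPoints (zpowers (π g)) (M.map π)) = Nat.card ((M ⊓ PGroup.commStab Z {g}).map π) := by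
    refine Nat.card_congr ⟨fun x => ⟨x.1.1, ?_⟩, fun x => ⟨⟨x.1, map_mono inf_le_left x.2⟩, fun a => Subtype.ext ?_⟩,
      fun _ => rfl, fun _ => rfl⟩
    · obtain ⟨⟨_, y, hy, rfl⟩, hx⟩ := x
      refine ⟨y, ⟨hy, normalizer_eq_top Z ▸ mem_top y, fun _ e => (QuotientGroup.eq_one_iff _).1 ?_⟩, rfl⟩
      have : π g * π y * (π g)⁻¹ = π y := congrArg Subtype.val (hx ⟨_, mem_zpowers _⟩)
      rw [e]
      exact (map_commutatorElement π y g).trans
        (commutatorElement_eq_one_iff_mul_comm.2 (mul_inv_eq_iff_eq_mul.1 this).symm)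
    · obtain ⟨_, y, hy, rfl⟩ := x
      obtain ⟨_, k, rfl⟩ := a
      have : Commute (π y) (π g) := commutatorElement_eq_one_iff_commute.1 ((map_commutatorElement π y g).symm.trans
        ((QuotientGroup.eq_one_iff _).2 (hy.2.2 g rfl)))
      exact mul_inv_eq_iff_eq_mul.2 (this.zpow_right k).symm
  rwa [e, Core.card_map_mk'_eq_relIndex, Core.card_map_mk'_eq_relIndex] at h

theorem x_cyc {G : Type*} [Group G] [Finite G] {C : Subgroup G} (h : IsCyclic C) {a b : G} (ma : a ∈ C) (mb : b ∈ C)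
    (a2 : a * a = 1) (b2 : b * b = 1) (a1 : a ≠ 1) (b1 : b ≠ 1) : a = b := by
  classical
  by_contra e
  have := Fintype.ofFinite C
  have := (Finset.card_le_card (s := {1, ⟨a, ma⟩, ⟨b, mb⟩}) (by
    intro x; simp only [Finset.mem_insert, Finset.mem_singleton, Finset.mem_filter, Finset.mem_univ, true_and]
    rintro (rfl | rfl | rfl)
    exacts [one_pow 2, Subtype.ext ((sq a).trans a2), Subtype.ext ((sq b).trans b2)])).trans
      (IsCyclic.card_pow_eq_one_le (α := C) two_pos)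
  rw [Finset.card_eq_three.2 ⟨_, _, _, fun f => a1 (congrArg Subtype.val f).symm,
    fun f => b1 (congrArg Subtype.val f).symm, fun f => e (congrArg Subtype.val f), rfl⟩] at this
  omega

/-- Work in `N̄ = N ⧸ Z.subgroupOf N` of order `16` (or with the `16` cosets), on which `⟨g⟩` acts through a group of
order `7`.  The fixed points form a subgroup of order `≡ 16 mod 7` (`IsPGroup.card_modEq_card_fixedPoints`), so of
order `2` or `16`.  If `2`, let `x̄ ≠ 1` be fixed: `M = C_N(x) ≥ Z` is `g`-invariant (`g x g⁻¹ ∈ x Z`), of index `2`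
in `N` (`y ↦ ⁅x, y⁆` is a homomorphism into the elements of order `≤ 2` of the cyclic group `Z`, non-trivial by
`hC`), so `g` fixes one of the `8` cosets outside `M`: a third fixed point.  Alternative: replace `g` by its
`7`-part and use coprime action `N = ⁅N, g⁆ C_N(g)`: `x` commutes with `⁅N, g⁆` since `⁅x, n^g⁆ = ⁅x, n⁆`. -/
theorem seven {G : Type*} [Group G] [Finite G] {Z N : Subgroup G} (hZ : Z ≤ center G) (hc : IsCyclic Z) (hZN : Z ≤ N)
    (h1 : ⁅N, N⁆ ≤ Z) (h2 : ∀ x ∈ N, x ^ 2 ∈ Z) (h16 : Z.relIndex N = 16) (hC : ∀ x ∈ N, (∀ y ∈ N, x * y = y * x) → x ∈ Z)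
    {g : G} (hg : g ∈ normalizer (N : Set G)) (h7 : g ^ 7 ∈ Z) : ∀ x ∈ N, ⁅g, x⁆ ∈ Z := by
  have := normal_of_le_center hZ
  have cz : ∀ z ∈ Z, ∀ y, y * z = z * y := fun z hz => mem_center_iff.1 (hZ hz)
  have hF : ∀ x, x ∈ PGroup.commStab Z {g} ↔ ⁅g, x⁆ ∈ Z := fun x =>
    ⟨fun h => commutatorElement_inv x g ▸ inv_mem (h.2 g rfl), fun h =>
      ⟨normalizer_eq_top Z ▸ mem_top x, fun _ e => by rw [e, ← commutatorElement_inv]; exact inv_mem h⟩⟩
  have ZF : Z ≤ PGroup.commStab Z {g} := fun z hz => (hF z).2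
    (commutatorElement_eq_one_iff_mul_comm.2 (cz z hz g) ▸ one_mem Z)
  have m := x_mod h7 hg
  have e := relIndex_mul_relIndex Z _ N (le_inf hZN ZF) inf_le_left
  rw [h16] at m e
  by_cases k : (N ⊓ PGroup.commStab Z {g}).relIndex N = 1
  · exact fun x hx => (hF x).1 (relIndex_eq_one.1 k hx).2
  have a2 : Z.relIndex (N ⊓ PGroup.commStab Z {g}) = 2 := by
    have := Nat.le_of_dvd (by norm_num) (Dvd.intro _ e)
    generalize Z.relIndex (N ⊓ PGroup.commStab Z {g}) = i at *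
    unfold Nat.ModEq at m
    obtain rfl | rfl | rfl : i = 2 ∨ i = 9 ∨ i = 16 := by omega
    all_goals omega
  obtain ⟨x, ⟨hx, gx⟩, xZ⟩ := SetLike.not_le_iff_exists.1 fun q : N ⊓ PGroup.commStab Z {g} ≤ Z => by
    rw [relIndex_eq_one.2 q] at a2; omega
  obtain ⟨a, ha, xa⟩ : ∃ a ∈ N, x * a ≠ a * x := by
    by_contra! q
    exact xZ (hC x hx q)
  have mu : ∀ b, ∀ c ∈ N, ⁅x, b * c⁆ = ⁅x, b⁆ * ⁅x, c⁆ := fun b c hc => by
    have := cz _ (h1 (commutator_mem_commutator hx hc)) b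
    rw [show ⁅x, b * c⁆ = ⁅x, b⁆ * (b * ⁅x, c⁆) * b⁻¹ by simp only [commutatorElement_def]; group, this]; group
  have sq : ∀ b ∈ N, ⁅x, b⁆ * ⁅x, b⁆ = 1 := fun b hb => by
    rw [← mu b b hb, ← pow_two]; exact commutatorElement_eq_one_iff_mul_comm.2 (cz _ (h2 b hb) x)
  have mM : ∀ b ∈ N, b ∈ N ⊓ centralizer {x} ↔ ⁅x, b⁆ = 1 := fun b hb => by
    rw [mem_inf, and_iff_right hb, mem_centralizer_singleton_iff, commutatorElement_eq_one_iff_mul_comm, eq_comm]
  have a1 := mt commutatorElement_eq_one_iff_mul_comm.1 xa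
  have i2 : (N ⊓ centralizer {x}).relIndex N = 2 := relIndex_eq_two_iff.2 ⟨a, ha, fun b hb => by
    rw [mM _ (mul_mem hb ha), mM b hb, mu b a ha]
    by_cases q : ⁅x, b⁆ = 1
    · exact Or.inr ⟨q, by rwa [q, one_mul]⟩
    · exact Or.inl ⟨by rw [x_cyc hc (h1 (commutator_mem_commutator hx hb)) (h1 (commutator_mem_commutator hx ha))
        (sq b hb) (sq a ha) q a1, sq a ha], q⟩⟩
  have ZM : Z ≤ N ⊓ centralizer {x} := fun z hz => ⟨hZN hz, mem_centralizer_singleton_iff.2 (cz z hz x).symm⟩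
  have m' := x_mod (M := N ⊓ centralizer {x}) h7 (mem_normalizer_fintype fun y hy =>
    ⟨(mem_normalizer_iff.1 hg y).1 hy.1, mem_centralizer_singleton_iff.2 (by
      have c : Commute (g * y * g⁻¹) (g * x * g⁻¹) := (Commute.conj_iff g).2 (mem_centralizer_singleton_iff.1 hy.2)
      have := (Commute.inv_right (cz _ ((hF x).1 gx) (g * y * g⁻¹))).mul_right c
      rwa [show ⁅g, x⁆⁻¹ * (g * x * g⁻¹) = x by simp only [commutatorElement_def]; group] at this)⟩)
  have e1 := relIndex_mul_relIndex Z _ N ZM inf_le_left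
  have e2 := relIndex_mul_relIndex Z _ (N ⊓ PGroup.commStab Z {g}) (le_inf ZM ZF) (inf_le_inf_right _ inf_le_left)
  have e3 : Z.relIndex (N ⊓ centralizer {x} ⊓ PGroup.commStab Z {g}) ≠ 1 := fun q =>
    xZ (relIndex_eq_one.1 q ⟨⟨hx, mem_centralizer_singleton_iff.2 rfl⟩, gx⟩)
  rw [i2, h16] at e1
  rw [a2] at e2
  have := Nat.le_of_dvd two_pos (Dvd.intro _ e2)
  unfold Nat.ModEq at m'
  omega

/-- `Z = scalars`, `K = H ⊔ Z`, `K₀ = K ⊓ commStab Z N ≥ N`.  `|N : Z| = 16` (`relIndex_scalars`), so the prime of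
`MinAb.exists_prime` is `2`.  `⁅K₀, K₀⁆` centralises `N` (`le_centralizer_of_commutator_le`), so is scalar
(`mem_scalars_of_commute`), and `env K₀ = ⊤`: `|K₀ : Z| = 16`.  `|K : K₀| ∣ |GL₄(2)| = 20160`
(`PGroup.relIndex_commStab_dvd_card_GL`, `card_GL_zmod`).  `7 ∤ |K : Z|`: an element of order `7` modulo `Z` (Cauchy
in `K ⧸ Z`) lies in `K₀` by `seven`, but `7 ∤ 16`.  `16 * 20160 = 7 * 46080`, `Z.relIndex (H ⊔ Z) = Z.relIndex H`
(`relIndex_sup_right`). -/
theorem xsp {H N : Subgroup (GL (Fin 4) (ZMod p))} (hN : N ≤ H ⊔ scalars _ _) (hm : MinAb (scalars _ _) H N)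
    (he : env N = ⊤) (hc : ⁅N, N⁆ ≤ scalars _ _) : (scalars (Fin 4) (ZMod p)).relIndex H ∣ 46080 := by
  have : Fact (Nat.Prime 7) := ⟨by norm_num⟩
  set Z := scalars (Fin 4) (ZMod p)
  let π := QuotientGroup.mk' Z
  have h16 : Z.relIndex N = 16 := by simpa using relIndex_scalars he hc
  have od : ∀ {K : Subgroup _} {x}, x ∈ K → orderOf (π x) ∣ Z.relIndex K := fun {K x} hx =>
    Core.card_map_mk'_eq_relIndex Z K ▸ orderOf_dvd_natCard _ (mem_map_of_mem π hx)
  obtain ⟨r, hr, h2⟩ := hm.exists_prime hc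
  obtain rfl : r = 2 := by
    obtain ⟨x, hx, xZ⟩ := SetLike.not_le_iff_exists.1 hm.nle
    have := Fact.mk hr
    have := od hx
    rw [orderOf_eq_prime (x := π x) ((QuotientGroup.eq_one_iff (x ^ r)).2 (h2 x hx)) (mt (QuotientGroup.eq_one_iff x).1 xZ),
      h16] at this
    exact (Nat.prime_dvd_prime_iff_eq hr Nat.prime_two).1 (hr.dvd_of_dvd_pow (n := 4) this)
  have nZ : ∀ K, K ≤ normalizer (Z : Set (GL (Fin 4) (ZMod p))) := fun K => le_normalizer_of_normal
  have KN : H ⊔ Z ≤ normalizer (N : Set (GL (Fin 4) (ZMod p))) := sup_le hm.nrm (hm.le.trans le_normalizer)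
  have N0 : N ≤ (H ⊔ Z) ⊓ PGroup.commStab Z N := le_inf hN (PGroup.le_commStab_iff.2 ⟨nZ N, hc⟩)
  have k16 : Z.relIndex ((H ⊔ Z) ⊓ PGroup.commStab Z N) = 16 := by
    simpa using relIndex_scalars (top_le_iff.1 (he ▸ env_mono N0)) fun x hx => mem_scalars_of_commute he fun y hy =>
      (le_centralizer_of_commutator_le scalars_le_center (PGroup.le_commStab_iff.1 inf_le_right).2 hx y hy).symm
  have d := PGroup.relIndex_commStab_dvd_card_GL (p := 2) (n := 4) hm.le hc h2 (nZ (H ⊔ Z)) KN h16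
  rw [PGroup.card_GL_zmod, ← inf_relIndex_left] at d
  have e := relIndex_mul_relIndex Z _ (H ⊔ Z) (hm.le.trans N0) inf_le_left
  rw [k16] at e
  rw [← relIndex_sup_right]
  refine Nat.Coprime.dvd_of_dvd_mul_left (m := 7) ((Nat.Prime.coprime_iff_not_dvd this.out).2 fun q => ?_).symm
    (e ▸ (Nat.mul_dvd_mul_left 16 d).trans (by decide))
  rw [← Core.card_map_mk'_eq_relIndex] at q
  obtain ⟨⟨_, g, hg, rfl⟩, o⟩ := exists_prime_orderOf_dvd_card' 7 q
  replace o : orderOf (π g) = 7 := (orderOf_mk _ _).symm.trans o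
  have := od (K := (H ⊔ Z) ⊓ PGroup.commStab Z N) ⟨hg, nZ _ hg, seven scalars_le_center (isCyclic_of_le_scalars le_rfl)
    hm.le hc h2 h16 (fun x _ => mem_scalars_of_commute he) (KN hg)
      ((QuotientGroup.eq_one_iff (g ^ 7)).1 (o ▸ pow_orderOf_eq_one (π g)))⟩
  rw [o, k16] at this
  omega

end Cfsg.Lib.TC
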